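import Mathlib
import Cfsg.Agent.Helper9.BRDefs
import Cfsg.Agent.Helper82.A7Defs

/-!
# CALL S0984, piece MONO (helper14) and the common tools for AVG0, FIXV:
sums of a character over a subgroup and invariants of the restriction
-/

set_option autoImplicit false
set_option linter.style.haveILetI false
open Cfsg
open scoped ComplexConjugate

universe u

namespace Cfsg.Agent.Helper14

/-- a `finsum` over a subgroup as a sum over the subtype -/
theorem a7_finsum_subgroup {G : Type u} [Group G] (A : Subgroup G) [Fintype A] (f : G → ℂ) :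
    ∑ᶠ g ∈ (A : Set G), f g = ∑ s : A, f s := by
  rw [← finsum_set_coe_eq_finsum_mem]
  exact finsum_eq_sum_of_fintype _

/-- the sum of a character over a subgroup is `|A|` times the dimension of the invariants of the
restriction -/
theorem a7_sum_eq_finrank {G : Type u} [Group G] [Finite G] {n : ℕ}
    (ρ : Representation ℂ G (Fin n → ℂ)) (A : Subgroup G) :
    ∑ᶠ g ∈ (A : Set G), ρ.character g =
      (Nat.card A : ℂ) * (Module.finrank ℂ (Representation.invariants (ρ.comp A.subtype)) : ℂ) := by
  classical
  letI : Fintype A := Fintype.ofFinite A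
  have hA : (Nat.card A : ℂ) ≠ 0 := by exact_mod_cast Nat.card_pos.ne'
  letI : Invertible (Nat.card A : ℂ) := invertibleOfNonzero hA
  have h := Representation.card_inv_mul_sum_char_eq_finrank (ρ.comp A.subtype)
  rw [a7_finsum_subgroup, ← h, ← mul_assoc, mul_inv_cancel₀ hA, one_mul]
  rfl

/-- invariants of the restriction to a larger subgroup are invariants of the restriction to a smaller
one -/
theorem a7_inv_mono {G : Type u} [Group G] {n : ℕ}
    (ρ : Representation ℂ G (Fin n → ℂ)) {A B : Subgroup G} (hAB : A ≤ B) :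
    Representation.invariants (ρ.comp B.subtype) ≤ Representation.invariants (ρ.comp A.subtype) :=
  fun _ hv a => hv ⟨a, hAB a.2⟩

/-- PIECE MONO -/
theorem a7_mono {G : Type u} [Group G] [Finite G] (χ : Cfsg.IrrCharacter G) (A B : Subgroup G)
    (hAB : A ≤ B) :
    ∃ m : ℕ, (Nat.card B : ℂ) * ∑ᶠ g ∈ (A : Set G), (χ : G → ℂ) g =
      (Nat.card A : ℂ) * (∑ᶠ g ∈ (B : Set G), (χ : G → ℂ) g + (Nat.card B : ℂ) * (m : ℂ)) := by
  obtain ⟨n, ρ, -, hρ⟩ := χ.2
  have hfr := Submodule.finrank_mono (a7_inv_mono ρ hAB)
  refine ⟨Module.finrank ℂ (Representation.invariants (ρ.comp A.subtype)) -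
    Module.finrank ℂ (Representation.invariants (ρ.comp B.subtype)), ?_⟩
  rw [← hρ, a7_sum_eq_finrank ρ A, a7_sum_eq_finrank ρ B, Nat.cast_sub hfr]
  ring

end Cfsg.Agent.Helper14
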