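import Mathlib
import Cfsg.Agent.Helper9.BRDefs
import Cfsg.Agent.Helper82.A7Defs
import Cfsg.Agent.Helper14.A7MONO

/-!
# CALL S0984, piece AVG0 (helper14)
-/

set_option autoImplicit false
set_option linter.style.haveILetI false
open Cfsg
open scoped ComplexConjugate

universe u

namespace Cfsg.Agent.Helper14

/-- PIECE AVG0 -/
theorem a7_avg_zero {G : Type u} [Group G] [Finite G] (χ : Cfsg.IrrCharacter G) (K : Subgroup G)
    (h0 : ∑ᶠ κ ∈ (K : Set G), (χ : G → ℂ) κ = 0) (g : G) :
    ∑ᶠ κ ∈ (K : Set G), (χ : G → ℂ) (κ * g) = 0 := by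
  classical
  obtain ⟨n, ρ, -, hρ⟩ := χ.2
  letI : Fintype K := Fintype.ofFinite K
  have hK : (Nat.card K : ℂ) ≠ 0 := by exact_mod_cast Nat.card_pos.ne'
  rw [← hρ] at h0 ⊢
  rw [a7_sum_eq_finrank ρ K] at h0
  have hfr : Module.finrank ℂ (Representation.invariants (ρ.comp K.subtype)) = 0 := by
    rcases mul_eq_zero.1 h0 with h | h
    · exact absurd h hK
    · exact_mod_cast h
  have hbot : Representation.invariants (ρ.comp K.subtype) = ⊥ := Submodule.finrank_eq_zero.1 hfr
  have hK' : (Fintype.card K : ℂ) ≠ 0 := by rw [Fintype.card_eq_nat_card]; exact hK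
  letI : Invertible (Fintype.card K : ℂ) := invertibleOfNonzero hK'
  have hsum : ∑ κ : K, ρ (κ : G) = 0 := by
    have hproj := Representation.isProj_averageMap (ρ.comp K.subtype)
    have havg : Representation.averageMap (ρ.comp K.subtype) = 0 := by
      refine LinearMap.ext fun v => ?_
      have := hproj.map_mem v
      rw [hbot] at this
      simpa using this
    have e : Representation.averageMap (ρ.comp K.subtype) =
        ⅟(Fintype.card K : ℂ) • ∑ κ : K, ρ (κ : G) := by
      simp [Representation.averageMap, GroupAlgebra.average, map_sum]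
    rw [e] at havg
    have h1 := congrArg (fun f => (Fintype.card K : ℂ) • f) havg
    simpa [smul_smul] using h1
  rw [show (∑ᶠ κ ∈ (K : Set G), ρ.character (κ * g)) = ∑ s : K, ρ.character ((s : G) * g) from
    a7_finsum_subgroup K (fun κ => ρ.character (κ * g))]
  have hch : ∀ κ : K, ρ.character ((κ : G) * g) =
      LinearMap.trace ℂ (Fin n → ℂ) (ρ (κ : G) * ρ g) := fun κ => by
    simp [Representation.character, map_mul]
  rw [Finset.sum_congr rfl (fun κ _ => hch κ), ← map_sum, ← Finset.sum_mul, hsum, zero_mul, map_zero]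

end Cfsg.Agent.Helper14
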