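import Mathlib

/-!
# Symmetric bilinear forms over fields: Gram determinants (discriminants), orthogonal splittings,
hyperbolic planes, and totally isotropic subspaces over finite fields of odd characteristic.

Everything is in `namespace Cfsg.Agent.Helper14`.
-/

set_option autoImplicit false

namespace Cfsg.Agent.Helper14

open Module

variable {F : Type*} [Field F]

section general

variable {V : Type*} [AddCommGroup V] [Module F V]

/-- `DiscEq B d`: `d` is the determinant of the Gram matrix of `B` in some (finite) basis. -/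
def DiscEq (B : LinearMap.BilinForm F V) (d : F) : Prop :=
  ∃ (ι : Type) (_ : Fintype ι) (_ : DecidableEq ι) (b : Basis ι F V),
    (LinearMap.BilinForm.toMatrix b B).det = d

theorem discEq_of_basis {ι : Type} [Fintype ι] [DecidableEq ι] (B : LinearMap.BilinForm F V)
    (b : Basis ι F V) : DiscEq B (LinearMap.BilinForm.toMatrix b B).det :=
  ⟨ι, inferInstance, inferInstance, b, rfl⟩

/-- Two Gram determinants of the same form differ by a nonzero square. -/
theorem DiscEq.unique {B : LinearMap.BilinForm F V} {d d' : F} (h : DiscEq B d) (h' : DiscEq B d') :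
    ∃ s : F, s ≠ 0 ∧ d' = s ^ 2 * d := by
  classical
  obtain ⟨ι, _, _, b, rfl⟩ := h
  obtain ⟨ι', _, _, b', rfl⟩ := h'
  let e : ι ≃ ι' := b.indexEquiv b'
  let b'' : Basis ι F V := b'.reindex e.symm
  have h1 : LinearMap.BilinForm.toMatrix b'' B = (LinearMap.BilinForm.toMatrix b' B).submatrix e e := by
    ext i j
    simp [b'', LinearMap.BilinForm.toMatrix_apply]
  have h2 : (LinearMap.BilinForm.toMatrix b' B).det = (LinearMap.BilinForm.toMatrix b'' B).det := by
    rw [h1, Matrix.det_submatrix_equiv_self]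
  have h3 := LinearMap.BilinForm.toMatrix_mul_basis_toMatrix b b'' B
  have h4 : (b.toMatrix b'').det * (b''.toMatrix b).det = 1 := by
    rw [← Matrix.det_mul, Basis.toMatrix_mul_toMatrix_flip, Matrix.det_one]
  refine ⟨(b.toMatrix b'').det, left_ne_zero_of_mul_eq_one h4, ?_⟩
  rw [h2, ← h3, Matrix.det_mul, Matrix.det_mul, Matrix.det_transpose]
  ring

/-- Gram determinant of an internal orthogonal direct sum. -/
theorem DiscEq.of_isCompl {B : LinearMap.BilinForm F V} (V₁ V₂ : Submodule F V)
    (hc : IsCompl V₁ V₂) (horth : ∀ x ∈ V₁, ∀ y ∈ V₂, B x y = 0)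
    (horth' : ∀ x ∈ V₁, ∀ y ∈ V₂, B y x = 0) {d₁ d₂ : F}
    (h₁ : DiscEq (B.restrict V₁) d₁) (h₂ : DiscEq (B.restrict V₂) d₂) : DiscEq B (d₁ * d₂) := by
  classical
  obtain ⟨ι₁, _, _, b₁, rfl⟩ := h₁
  obtain ⟨ι₂, _, _, b₂, rfl⟩ := h₂
  let b : Basis (ι₁ ⊕ ι₂) F V := (b₁.prod b₂).map (Submodule.prodEquivOfIsCompl V₁ V₂ hc)
  refine ⟨ι₁ ⊕ ι₂, inferInstance, inferInstance, b, ?_⟩
  have hbl : ∀ i, b (Sum.inl i) = (b₁ i : V) := by
    intro i
    simp [b, Basis.prod_apply]
  have hbr : ∀ i, b (Sum.inr i) = (b₂ i : V) := by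
    intro i
    simp [b, Basis.prod_apply]
  have hG : LinearMap.BilinForm.toMatrix b B
      = Matrix.fromBlocks (LinearMap.BilinForm.toMatrix b₁ (B.restrict V₁)) 0 0
          (LinearMap.BilinForm.toMatrix b₂ (B.restrict V₂)) := by
    ext i j
    rcases i with i | i <;> rcases j with j | j
    · simp [LinearMap.BilinForm.toMatrix_apply, hbl]
    · simp only [LinearMap.BilinForm.toMatrix_apply, hbl, hbr, Matrix.fromBlocks_apply₁₂,
        Matrix.zero_apply]
      exact horth _ (b₁ i).2 _ (b₂ j).2
    · simp only [LinearMap.BilinForm.toMatrix_apply, hbl, hbr, Matrix.fromBlocks_apply₂₁,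
        Matrix.zero_apply]
      exact horth' _ (b₁ j).2 _ (b₂ i).2
    · simp [LinearMap.BilinForm.toMatrix_apply, hbr]
  rw [hG, Matrix.det_fromBlocks_zero₂₁]

/-- A subspace on which a reflexive nondegenerate form restricts nondegenerately splits off,
and the restriction to the orthogonal complement is nondegenerate. -/
theorem nondegenerate_restrict_orthogonal [FiniteDimensional F V] {B : LinearMap.BilinForm F V}
    (hB : B.Nondegenerate) (hr : B.IsRefl) (W : Submodule F V)
    (hW : (B.restrict W).Nondegenerate) :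
    IsCompl W (B.orthogonal W) ∧ (B.restrict (B.orthogonal W)).Nondegenerate := by
  have hc := LinearMap.BilinForm.isCompl_orthogonal_of_restrict_nondegenerate hr hW
  refine ⟨hc, ?_⟩
  rw [LinearMap.BilinForm.restrict_nondegenerate_iff_isCompl_orthogonal hr,
    LinearMap.BilinForm.orthogonal_orthogonal hB hr]
  exact hc.symm

/-- In characteristic not two, an isotropic nonzero vector of a nondegenerate symmetric form has
an isotropic partner `w` with `B v w = 1`. -/
theorem exists_hyperbolic_partner (h2 : (2 : F) ≠ 0) {B : LinearMap.BilinForm F V}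
    (hB : B.Nondegenerate) (hs : B.IsSymm) {v : V} (hv : v ≠ 0) (hvv : B v v = 0) :
    ∃ w : V, B v w = 1 ∧ B w w = 0 := by
  obtain ⟨w₀, hw₀⟩ : ∃ w₀, B v w₀ ≠ 0 := by
    by_contra hcon
    push Not at hcon
    exact hv (hB.1 v hcon)
  obtain ⟨w₁, h1⟩ : ∃ w₁, B v w₁ = 1 :=
    ⟨(B v w₀)⁻¹ • w₀, by rw [map_smul, smul_eq_mul, inv_mul_cancel₀ hw₀]⟩
  have h1' : B w₁ v = 1 := by rw [hs.eq, h1]
  refine ⟨w₁ - (B w₁ w₁ / 2) • v, ?_, ?_⟩
  · simp only [map_sub, map_smul, smul_eq_mul, hvv, mul_zero, sub_zero, h1]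
  · simp only [map_sub, map_smul, LinearMap.sub_apply, LinearMap.smul_apply, smul_eq_mul, hvv, h1,
      h1']
    field_simp
    ring

/-- The plane spanned by a hyperbolic pair. -/
abbrev hypPlane (v w : V) : Submodule F V := Submodule.span F (Set.range ![v, w])

theorem mem_hypPlane_left (v w : V) : v ∈ hypPlane (F := F) v w :=
  Submodule.subset_span ⟨0, rfl⟩

theorem mem_hypPlane_right (v w : V) : w ∈ hypPlane (F := F) v w :=
  Submodule.subset_span ⟨1, rfl⟩

theorem hyp_linearIndependent {B : LinearMap.BilinForm F V} {v w : V} (hvv : B v v = 0)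
    (hvw : B v w = 1) (hwv : B w v = 1) (hww : B w w = 0) : LinearIndependent F ![v, w] := by
  rw [LinearIndependent.pair_iff]
  intro s t hst
  have h1 : B (s • v + t • w) w = 0 := by rw [hst]; simp
  have h2 : B (s • v + t • w) v = 0 := by rw [hst]; simp
  simp only [map_add, map_smul, LinearMap.add_apply, LinearMap.smul_apply, smul_eq_mul, hvw, hww,
    hvv, hwv, mul_one, mul_zero, add_zero, zero_add] at h1 h2
  exact ⟨h1, h2⟩

theorem discEq_hypPlane {B : LinearMap.BilinForm F V} {v w : V} (hvv : B v v = 0)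
    (hvw : B v w = 1) (hwv : B w v = 1) (hww : B w w = 0) :
    DiscEq (B.restrict (hypPlane v w)) (-1) := by
  classical
  have hli := hyp_linearIndependent hvv hvw hwv hww
  refine ⟨Fin 2, inferInstance, inferInstance, Basis.span hli, ?_⟩
  have hG : LinearMap.BilinForm.toMatrix (Basis.span hli) (B.restrict (hypPlane v w))
      = !![0, 1; 1, 0] := by
    ext i j
    rw [LinearMap.BilinForm.toMatrix_apply, LinearMap.BilinForm.restrict_apply,
      LinearMap.domRestrict_apply, Basis.span_apply, Basis.span_apply]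
    fin_cases i <;> fin_cases j <;> simp [hvv, hvw, hwv, hww]
  rw [hG, Matrix.det_fin_two_of]
  ring

theorem nondegenerate_hypPlane {B : LinearMap.BilinForm F V} {v w : V} (hvv : B v v = 0)
    (hvw : B v w = 1) (hwv : B w v = 1) (hww : B w w = 0) :
    (B.restrict (hypPlane v w)).Nondegenerate := by
  classical
  obtain ⟨ι, _, _, b, hb⟩ := discEq_hypPlane hvv hvw hwv hww
  exact (LinearMap.BilinForm.nondegenerate_iff_det_ne_zero b).mpr (by rw [hb]; simp)

theorem finrank_hypPlane {B : LinearMap.BilinForm F V} {v w : V} (hvv : B v v = 0)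
    (hvw : B v w = 1) (hwv : B w v = 1) (hww : B w w = 0) :
    Module.finrank F (hypPlane (F := F) v w) = 2 := by
  have hli := hyp_linearIndependent hvv hvw hwv hww
  rw [hypPlane, finrank_span_eq_card hli]
  simp

/-- A totally isotropic subspace of a nondegenerate form has at most half the dimension. -/
theorem two_mul_finrank_le_of_isotropic [FiniteDimensional F V] {B : LinearMap.BilinForm F V}
    (hB : B.Nondegenerate) (L : Submodule F V) (hL : ∀ x ∈ L, ∀ y ∈ L, B x y = 0) :
    2 * Module.finrank F L ≤ Module.finrank F V := by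
  have hle : L ≤ B.orthogonal L := fun x hx n hn => hL n hn x hx
  have h1 := Submodule.finrank_mono hle
  have h2 := LinearMap.BilinForm.finrank_orthogonal hB L
  have h3 : Module.finrank F L ≤ Module.finrank F V := Submodule.finrank_le L
  omega

end general

section quadratic_solutions

variable [Fintype F]

theorem card_mod_two_of_two_ne_zero (h2 : (2 : F) ≠ 0) : Fintype.card F % 2 = 1 := by
  apply FiniteField.odd_card_of_char_ne_two
  intro h
  apply h2
  have := ringChar.Nat.cast_ringChar (R := F)
  rw [h] at this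
  exact_mod_cast this

/-- Over a finite field of odd order, `a x² + b y² = c` is solvable for `a, b ≠ 0`. -/
theorem exists_sq_add_sq (h2 : (2 : F) ≠ 0) {a b : F} (ha : a ≠ 0) (hb : b ≠ 0) (c : F) :
    ∃ x y : F, a * x ^ 2 + b * y ^ 2 = c := by
  classical
  have hf : (Polynomial.C a * Polynomial.X ^ 2 + Polynomial.C 0 * Polynomial.X
      + Polynomial.C 0 : Polynomial F).degree = 2 := Polynomial.degree_quadratic ha
  have hg : (Polynomial.C b * Polynomial.X ^ 2 + Polynomial.C 0 * Polynomial.X
      + Polynomial.C (-c) : Polynomial F).degree = 2 := Polynomial.degree_quadratic hb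
  obtain ⟨x, y, hxy⟩ := FiniteField.exists_root_sum_quadratic hf hg (card_mod_two_of_two_ne_zero h2)
  refine ⟨x, y, ?_⟩
  simp only [Polynomial.eval_add, Polynomial.eval_mul, Polynomial.eval_C, Polynomial.eval_pow,
    Polynomial.eval_X, zero_mul, add_zero] at hxy
  linear_combination hxy

end quadratic_solutions

section orthogonal_basis

variable {V : Type*} [AddCommGroup V] [Module F V] [FiniteDimensional F V]

/-- An orthogonal basis with nonzero norms, indexed by `Fin n`. -/
theorem exists_orthogonal_basis' (h2 : (2 : F) ≠ 0) {B : LinearMap.BilinForm F V}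
    (hB : B.Nondegenerate) (hs : B.IsSymm) {n : ℕ} (hn : Module.finrank F V = n) :
    ∃ e : Basis (Fin n) F V, (∀ i j, i ≠ j → B (e i) (e j) = 0) ∧ ∀ i, B (e i) (e i) ≠ 0 := by
  subst hn
  have : Invertible (2 : F) := invertibleOfNonzero h2
  obtain ⟨e, he⟩ := LinearMap.BilinForm.exists_orthogonal_basis
    (LinearMap.BilinForm.isSymm_iff.mp hs)
  exact ⟨e, he, fun i =>
    LinearMap.BilinForm.iIsOrtho.not_isOrtho_basis_self_of_nondegenerate he hB i⟩

variable [Fintype F]

theorem exists_isotropic_of_three_le (h2 : (2 : F) ≠ 0) {B : LinearMap.BilinForm F V}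
    (hB : B.Nondegenerate) (hs : B.IsSymm) (h3 : 3 ≤ Module.finrank F V) :
    ∃ v : V, v ≠ 0 ∧ B v v = 0 := by
  obtain ⟨e, he, hne⟩ := exists_orthogonal_basis' h2 hB hs rfl
  let i0 : Fin (Module.finrank F V) := ⟨0, by omega⟩
  let i1 : Fin (Module.finrank F V) := ⟨1, by omega⟩
  let i2 : Fin (Module.finrank F V) := ⟨2, by omega⟩
  have h01 : i0 ≠ i1 := by simp [i0, i1, Fin.ext_iff]
  have h02 : i0 ≠ i2 := by simp [i0, i2, Fin.ext_iff]
  have h12 : i1 ≠ i2 := by simp [i1, i2, Fin.ext_iff]
  obtain ⟨x, y, hxy⟩ := exists_sq_add_sq h2 (hne i0) (hne i1) (-(B (e i2) (e i2)))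
  refine ⟨x • e i0 + y • e i1 + e i2, ?_, ?_⟩
  · intro h
    have := congrArg (fun v => e.repr v i2) h
    simp [h02, h12] at this
  · simp only [map_add, map_smul, LinearMap.add_apply, LinearMap.smul_apply, smul_eq_mul,
      he i0 i1 h01, he i1 i0 h01.symm, he i0 i2 h02, he i2 i0 h02.symm, he i1 i2 h12,
      he i2 i1 h12.symm]
    linear_combination hxy

omit [Fintype F] in
theorem exists_isotropic_of_two (h2 : (2 : F) ≠ 0) {B : LinearMap.BilinForm F V}
    (hB : B.Nondegenerate) (hs : B.IsSymm) (hdim : Module.finrank F V = 2) {s : F}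
    (hd : DiscEq B (-(s ^ 2))) : ∃ v : V, v ≠ 0 ∧ B v v = 0 := by
  classical
  obtain ⟨e, he, hne⟩ := exists_orthogonal_basis' h2 hB hs hdim
  have hdet : (LinearMap.BilinForm.toMatrix e B).det = B (e 0) (e 0) * B (e 1) (e 1) := by
    rw [Matrix.det_fin_two, LinearMap.BilinForm.toMatrix_apply, LinearMap.BilinForm.toMatrix_apply,
      LinearMap.BilinForm.toMatrix_apply, LinearMap.BilinForm.toMatrix_apply,
      he 0 1 (by simp), he 1 0 (by simp)]
    ring
  obtain ⟨t, ht0, ht⟩ := hd.unique (discEq_of_basis B e)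
  rw [hdet] at ht
  refine ⟨(t * s) • e 0 + B (e 0) (e 0) • e 1, ?_, ?_⟩
  · intro h
    have := congrArg (fun v => e.repr v 1) h
    simp at this
    exact hne 0 this
  · simp only [map_add, map_smul, LinearMap.add_apply, LinearMap.smul_apply, smul_eq_mul,
      he 0 1 (by simp), he 1 0 (by simp)]
    linear_combination (B (e 0) (e 0)) * ht

end orthogonal_basis

section isotropic

universe v

variable [Fintype F]

/-- Over a finite field of odd order: a nondegenerate symmetric form of dimension `2m` whose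
Gram determinant is `(-1)^m` times a square has a totally isotropic subspace of dimension `m`. -/
theorem exists_isotropic_subspace (h2 : (2 : F) ≠ 0) (m : ℕ) :
    ∀ (V : Type v) [AddCommGroup V] [Module F V] [FiniteDimensional F V]
      (B : LinearMap.BilinForm F V), B.Nondegenerate → B.IsSymm → Module.finrank F V = 2 * m →
      (∃ s : F, s ≠ 0 ∧ DiscEq B ((-1) ^ m * s ^ 2)) →
      ∃ L : Submodule F V, Module.finrank F L = m ∧ ∀ x ∈ L, ∀ y ∈ L, B x y = 0 := by
  induction m with
  | zero =>
    intro V _ _ _ B hB hs hdim _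
    refine ⟨⊥, by simp, ?_⟩
    intro x hx
    rw [Submodule.mem_bot] at hx
    subst hx
    simp
  | succ m ih =>
    intro V _ _ _ B hB hs hdim hdisc
    obtain ⟨s, hs0, hd⟩ := hdisc
    obtain ⟨v, hv0, hvv⟩ : ∃ v : V, v ≠ 0 ∧ B v v = 0 := by
      rcases Nat.eq_zero_or_pos m with rfl | hm
      · refine exists_isotropic_of_two h2 hB hs (by omega) (s := s) ?_
        have : (-(s ^ 2) : F) = (-1) ^ (0 + 1) * s ^ 2 := by ring
        rw [this]
        exact hd
      · exact exists_isotropic_of_three_le h2 hB hs (by omega)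
    obtain ⟨w, hvw, hww⟩ := exists_hyperbolic_partner h2 hB hs hv0 hvv
    have hwv : B w v = 1 := by rw [hs.eq, hvw]
    have hHnd := nondegenerate_hypPlane hvv hvw hwv hww
    obtain ⟨hc, hnd'⟩ := nondegenerate_restrict_orthogonal hB hs.isRefl (hypPlane v w) hHnd
    have hfinH : Module.finrank F (hypPlane (F := F) v w) = 2 :=
      finrank_hypPlane hvv hvw hwv hww
    have hfin' : Module.finrank F (B.orthogonal (hypPlane v w)) = 2 * m := by
      rw [LinearMap.BilinForm.finrank_orthogonal hB (hypPlane v w), hdim, hfinH]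
      omega
    obtain ⟨d', hd'⟩ : ∃ d', DiscEq (B.restrict (B.orthogonal (hypPlane v w))) d' :=
      ⟨_, discEq_of_basis _ (Module.finBasis F _)⟩
    have hsum : DiscEq B (-1 * d') :=
      DiscEq.of_isCompl (hypPlane v w) (B.orthogonal (hypPlane v w)) hc
        (fun x hx y hy => hy x hx) (fun x hx y hy => by rw [hs.eq]; exact hy x hx)
        (discEq_hypPlane hvv hvw hwv hww) hd'
    obtain ⟨t, ht0, ht⟩ := hd.unique hsum
    have hd'' : DiscEq (B.restrict (B.orthogonal (hypPlane v w))) ((-1) ^ m * (t * s) ^ 2) := by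
      have : d' = (-1) ^ m * (t * s) ^ 2 := by
        rw [pow_succ] at ht
        linear_combination (-1 : F) * ht
      rw [← this]
      exact hd'
    obtain ⟨L', hL'fin, hL'ti⟩ := ih (B.orthogonal (hypPlane v w))
      (B.restrict (B.orthogonal (hypPlane v w))) hnd' (hs.restrict _) hfin'
      ⟨t * s, mul_ne_zero ht0 hs0, hd''⟩
    refine ⟨L'.map (B.orthogonal (hypPlane v w)).subtype ⊔ Submodule.span F {v}, ?_, ?_⟩
    · have hdisj : L'.map (B.orthogonal (hypPlane v w)).subtype ⊓ Submodule.span F {v} = ⊥ := by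
        rw [eq_bot_iff]
        intro x hx
        obtain ⟨hx1, hx2⟩ := Submodule.mem_inf.mp hx
        have hxH' : x ∈ B.orthogonal (hypPlane v w) := by
          obtain ⟨y, -, rfl⟩ := hx1
          exact y.2
        have hxH : x ∈ hypPlane (F := F) v w := by
          obtain ⟨a, rfl⟩ := Submodule.mem_span_singleton.mp hx2
          exact Submodule.smul_mem _ a (mem_hypPlane_left v w)
        have := hc.disjoint
        rw [Submodule.disjoint_def] at this
        exact this x hxH hxH'
      have h1 : Module.finrank F (L'.map (B.orthogonal (hypPlane v w)).subtype) = m := by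
        rw [← hL'fin]
        exact (Submodule.equivMapOfInjective _ (Submodule.injective_subtype _) L').finrank_eq.symm
      have h2' : Module.finrank F (Submodule.span F {v}) = 1 := finrank_span_singleton hv0
      have h3 := Submodule.finrank_sup_add_finrank_inf_eq
        (L'.map (B.orthogonal (hypPlane v w)).subtype) (Submodule.span F {v})
      rw [hdisj, finrank_bot] at h3
      omega
    · intro x hx y hy
      obtain ⟨l, hl, z, hz, rfl⟩ := Submodule.mem_sup.mp hx
      obtain ⟨l', hl', z', hz', rfl⟩ := Submodule.mem_sup.mp hy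
      obtain ⟨a, rfl⟩ := Submodule.mem_span_singleton.mp hz
      obtain ⟨b, rfl⟩ := Submodule.mem_span_singleton.mp hz'
      obtain ⟨l0, hl0, rfl⟩ := hl
      obtain ⟨l0', hl0', rfl⟩ := hl'
      have e1 : B (l0 : V) (l0' : V) = 0 := hL'ti l0 hl0 l0' hl0'
      have e2 : B v (l0' : V) = 0 := l0'.2 v (mem_hypPlane_left v w)
      have e3 : B v (l0 : V) = 0 := l0.2 v (mem_hypPlane_left v w)
      have e4 : B (l0 : V) v = 0 := by rw [hs.eq]; exact e3
      simp [map_add, e1, e2, e4, hvv]

omit [Fintype F] in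
/-- A nondegenerate symmetric form of dimension `2m` (characteristic not two) with a totally
isotropic subspace of dimension `m` has Gram determinant `(-1)^m` times a nonzero square. -/
theorem discEq_of_isotropic (h2 : (2 : F) ≠ 0) (m : ℕ) :
    ∀ (V : Type v) [AddCommGroup V] [Module F V] [FiniteDimensional F V]
      (B : LinearMap.BilinForm F V), B.Nondegenerate → B.IsSymm → Module.finrank F V = 2 * m →
      (∃ L : Submodule F V, Module.finrank F L = m ∧ ∀ x ∈ L, ∀ y ∈ L, B x y = 0) →
      ∃ s : F, s ≠ 0 ∧ DiscEq B ((-1) ^ m * s ^ 2) := by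
  induction m with
  | zero =>
    intro V _ _ _ B hB hs hdim _
    refine ⟨1, one_ne_zero, ?_⟩
    have h0 : Module.finrank F V = 0 := by omega
    have := discEq_of_basis B (Module.finBasisOfFinrankEq F V h0)
    rw [Matrix.det_isEmpty] at this
    simpa using this
  | succ m ih =>
    intro V _ _ _ B hB hs hdim hL
    obtain ⟨L, hLfin, hLti⟩ := hL
    obtain ⟨v, hvL, hv0⟩ : ∃ v ∈ L, v ≠ 0 := by
      have hLne : L ≠ ⊥ := by
        intro h
        rw [h, finrank_bot] at hLfin
        omega
      exact Submodule.exists_mem_ne_zero_of_ne_bot hLne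
    have hvv : B v v = 0 := hLti v hvL v hvL
    obtain ⟨w, hvw, hww⟩ := exists_hyperbolic_partner h2 hB hs hv0 hvv
    have hwv : B w v = 1 := by rw [hs.eq, hvw]
    have hHnd := nondegenerate_hypPlane hvv hvw hwv hww
    obtain ⟨hc, hnd'⟩ := nondegenerate_restrict_orthogonal hB hs.isRefl (hypPlane v w) hHnd
    have hfinH : Module.finrank F (hypPlane (F := F) v w) = 2 :=
      finrank_hypPlane hvv hvw hwv hww
    have hfin' : Module.finrank F (B.orthogonal (hypPlane v w)) = 2 * m := by
      rw [LinearMap.BilinForm.finrank_orthogonal hB (hypPlane v w), hdim, hfinH]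
      omega
    -- the isotropic subspace of the complement
    let L' : Submodule F (B.orthogonal (hypPlane v w)) :=
      L.comap (B.orthogonal (hypPlane v w)).subtype
    have hL'ti : ∀ x ∈ L', ∀ y ∈ L', (B.restrict (B.orthogonal (hypPlane v w))) x y = 0 := by
      intro x hx y hy
      exact hLti _ hx _ hy
    have hL'le : 2 * Module.finrank F L' ≤ 2 * m := by
      have := two_mul_finrank_le_of_isotropic hnd' L' hL'ti
      omega
    have hL'ge : m ≤ Module.finrank F L' := by
      -- L ⊓ ker (B w) maps into L'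
      have hw0 : B w ≠ 0 := by
        intro h
        rw [h] at hwv
        simp at hwv
      have hker : Module.finrank F (LinearMap.ker (B w)) + 1 = Module.finrank F V :=
        Module.Dual.finrank_ker_add_one_of_ne_zero hw0
      have h3 := Submodule.finrank_sup_add_finrank_inf_eq L (LinearMap.ker (B w))
      have h4 : Module.finrank F (L ⊔ LinearMap.ker (B w) : Submodule F V) ≤ Module.finrank F V :=
        Submodule.finrank_le _
      have h5 : m ≤ Module.finrank F (L ⊓ LinearMap.ker (B w) : Submodule F V) := by omega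
      have hle : (L ⊓ LinearMap.ker (B w) : Submodule F V)
          ≤ L'.map (B.orthogonal (hypPlane v w)).subtype := by
        intro x hx
        obtain ⟨hxL, hxk⟩ := Submodule.mem_inf.mp hx
        have hxo : x ∈ B.orthogonal (hypPlane v w) := by
          intro n hn
          refine Submodule.span_induction ?_ ?_ ?_ ?_ hn
          · rintro _ ⟨i, rfl⟩
            fin_cases i
            · exact hLti v hvL x hxL
            · exact hxk
          · simp
          · intro a b _ _ ha hb
            rw [map_add, LinearMap.add_apply, ha, hb, add_zero]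
          · intro a b _ hb
            rw [map_smul, LinearMap.smul_apply, hb, smul_zero]
        exact ⟨⟨x, hxo⟩, hxL, rfl⟩
      have h6 := Submodule.finrank_mono hle
      have h7 : Module.finrank F (L'.map (B.orthogonal (hypPlane v w)).subtype)
          = Module.finrank F L' :=
        (Submodule.equivMapOfInjective _ (Submodule.injective_subtype _) L').finrank_eq.symm
      omega
    obtain ⟨s, hs0, hd'⟩ := ih (B.orthogonal (hypPlane v w))
      (B.restrict (B.orthogonal (hypPlane v w))) hnd' (hs.restrict _) hfin'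
      ⟨L', by omega, hL'ti⟩
    refine ⟨s, hs0, ?_⟩
    have hsum : DiscEq B (-1 * ((-1) ^ m * s ^ 2)) :=
      DiscEq.of_isCompl (hypPlane v w) (B.orthogonal (hypPlane v w)) hc
        (fun x hx y hy => hy x hx) (fun x hx y hy => by rw [hs.eq]; exact hy x hx)
        (discEq_hypPlane hvv hvw hwv hww) hd'
    have : (-1 : F) ^ (m + 1) * s ^ 2 = -1 * ((-1) ^ m * s ^ 2) := by ring
    rw [this]
    exact hsum

end isotropic

section tensor

open TensorProduct

variable {U W : Type*} [AddCommGroup U] [Module F U] [AddCommGroup W] [Module F W]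

theorem tmul_apply' (B₁ : LinearMap.BilinForm F U) (B₂ : LinearMap.BilinForm F W)
    (u u' : U) (w w' : W) :
    (B₁.tmul B₂) (u ⊗ₜ w) (u' ⊗ₜ w') = B₁ u u' * B₂ w w' := by
  change B₂ w w' • B₁ u u' = _
  rw [smul_eq_mul, mul_comm]

/-- Gram determinant of a tensor product of forms. -/
theorem DiscEq.tmul [FiniteDimensional F U] [FiniteDimensional F W]
    {B₁ : LinearMap.BilinForm F U} {B₂ : LinearMap.BilinForm F W} {d₁ d₂ : F}
    (h₁ : DiscEq B₁ d₁) (h₂ : DiscEq B₂ d₂) :
    DiscEq (B₁.tmul B₂) (d₁ ^ Module.finrank F W * d₂ ^ Module.finrank F U) := by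
  classical
  obtain ⟨ι₁, _, _, b₁, rfl⟩ := h₁
  obtain ⟨ι₂, _, _, b₂, rfl⟩ := h₂
  refine ⟨ι₁ × ι₂, inferInstance, inferInstance, Basis.tensorProduct b₁ b₂, ?_⟩
  have hG : LinearMap.BilinForm.toMatrix (Basis.tensorProduct b₁ b₂) (B₁.tmul B₂)
      = Matrix.kroneckerMap (· * ·) (LinearMap.BilinForm.toMatrix b₁ B₁)
          (LinearMap.BilinForm.toMatrix b₂ B₂) := by
    ext ⟨i, j⟩ ⟨i', j'⟩
    rw [LinearMap.BilinForm.toMatrix_apply, Basis.tensorProduct_apply, Basis.tensorProduct_apply,
      tmul_apply', Matrix.kroneckerMap_apply, LinearMap.BilinForm.toMatrix_apply,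
      LinearMap.BilinForm.toMatrix_apply]
  rw [hG, Matrix.det_kronecker, Module.finrank_eq_card_basis b₁, Module.finrank_eq_card_basis b₂]

theorem exists_discEq [FiniteDimensional F U] (B : LinearMap.BilinForm F U) : ∃ d, DiscEq B d :=
  ⟨_, discEq_of_basis B (Module.finBasis F U)⟩

theorem DiscEq.ne_zero {B : LinearMap.BilinForm F U} {d : F} (h : DiscEq B d)
    (hB : B.Nondegenerate) : d ≠ 0 := by
  classical
  obtain ⟨ι, _, _, b, rfl⟩ := h
  exact (LinearMap.BilinForm.nondegenerate_iff_det_ne_zero b).mp hB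

theorem DiscEq.nondegenerate {B : LinearMap.BilinForm F U} {d : F} (h : DiscEq B d)
    (hd : d ≠ 0) : B.Nondegenerate := by
  classical
  obtain ⟨ι, _, _, b, rfl⟩ := h
  exact (LinearMap.BilinForm.nondegenerate_iff_det_ne_zero b).mpr hd

theorem nondegenerate_tmul [FiniteDimensional F U] [FiniteDimensional F W]
    {B₁ : LinearMap.BilinForm F U} {B₂ : LinearMap.BilinForm F W}
    (h₁ : B₁.Nondegenerate) (h₂ : B₂.Nondegenerate) : (B₁.tmul B₂).Nondegenerate := by
  obtain ⟨d₁, hd₁⟩ := exists_discEq B₁
  obtain ⟨d₂, hd₂⟩ := exists_discEq B₂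
  exact (hd₁.tmul hd₂).nondegenerate
    (mul_ne_zero (pow_ne_zero _ (hd₁.ne_zero h₁)) (pow_ne_zero _ (hd₂.ne_zero h₂)))

end tensor

end Cfsg.Agent.Helper14
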