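import Mathlib
import Cfsg.Agent.Helper14.Forms

/-!
# Normal form of symmetric bilinear forms over finite fields of odd order

A nondegenerate symmetric bilinear form of dimension `d + 1` has an orthogonal basis all of whose
vectors have norm `1`, except possibly the last one.

Everything is in `namespace Cfsg.Agent.Helper14`.
-/

set_option autoImplicit false

namespace Cfsg.Agent.Helper14

open Module

variable {F : Type*} [Field F]

section normal

universe v

variable [Fintype F]

/-- In dimension at least two, a nondegenerate symmetric form over a finite field of odd order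
represents `1`. -/
theorem exists_norm_one (h2 : (2 : F) ≠ 0) {V : Type*} [AddCommGroup V] [Module F V]
    [FiniteDimensional F V] {B : LinearMap.BilinForm F V} (hB : B.Nondegenerate) (hs : B.IsSymm)
    (hdim : 2 ≤ Module.finrank F V) : ∃ x : V, B x x = 1 := by
  obtain ⟨e, he, hne⟩ := exists_orthogonal_basis' h2 hB hs rfl
  let i0 : Fin (Module.finrank F V) := ⟨0, by omega⟩
  let i1 : Fin (Module.finrank F V) := ⟨1, by omega⟩
  have h01 : i0 ≠ i1 := by simp [i0, i1, Fin.ext_iff]
  obtain ⟨x, y, hxy⟩ := exists_sq_add_sq h2 (hne i0) (hne i1) 1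
  refine ⟨x • e i0 + y • e i1, ?_⟩
  simp only [map_add, map_smul, LinearMap.add_apply, LinearMap.smul_apply, smul_eq_mul,
    he i0 i1 h01, he i1 i0 h01.symm]
  linear_combination hxy

/-- Normal form: an orthogonal basis with all norms `1` except possibly the last. -/
theorem exists_normal_basis (h2 : (2 : F) ≠ 0) (d : ℕ) :
    ∀ (V : Type v) [AddCommGroup V] [Module F V] [FiniteDimensional F V]
      (B : LinearMap.BilinForm F V), B.Nondegenerate → B.IsSymm → Module.finrank F V = d + 1 →
      ∃ e : Basis (Fin (d + 1)) F V, (∀ i j, i ≠ j → B (e i) (e j) = 0) ∧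
        (∀ i, i ≠ Fin.last d → B (e i) (e i) = 1) ∧ B (e (Fin.last d)) (e (Fin.last d)) ≠ 0 := by
  induction d with
  | zero =>
    intro V _ _ _ B hB hs hdim
    obtain ⟨e, he, hne⟩ := exists_orthogonal_basis' h2 hB hs hdim
    refine ⟨e, he, ?_, hne _⟩
    intro i hi
    exact absurd (Fin.ext (by have := i.2; simp only [Fin.val_last]; omega)) hi
  | succ d ih =>
    intro V _ _ _ B hB hs hdim
    obtain ⟨x, hx⟩ := exists_norm_one h2 hB hs (by omega)
    have hx0 : B x x ≠ 0 := by rw [hx]; exact one_ne_zero
    have hc := LinearMap.BilinForm.isCompl_span_singleton_orthogonal hx0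
    have hnd' := LinearMap.BilinForm.restrict_nondegenerate_orthogonal_spanSingleton B hB
      hs.isRefl hx0
    have hxne : x ≠ 0 := by
      intro h
      rw [h] at hx0
      simp at hx0
    have hfin' : Module.finrank F (B.orthogonal (Submodule.span F {x})) = d + 1 := by
      have := Submodule.finrank_add_eq_of_isCompl hc
      rw [finrank_span_singleton hxne, hdim] at this
      omega
    obtain ⟨e', he'o, he'1, he'l⟩ := ih (B.orthogonal (Submodule.span F {x}))
      (B.restrict (B.orthogonal (Submodule.span F {x}))) hnd' (hs.restrict _) hfin'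
    let b : Basis (Fin (d + 1 + 1)) F V :=
      Basis.mkFinCons x e'
        (by
          rintro c y hy hc'
          rw [add_eq_zero_iff_neg_eq] at hc'
          rw [← hc', Submodule.neg_mem_iff] at hy
          have := hc.disjoint
          rw [Submodule.disjoint_def] at this
          have := this (c • x) (Submodule.smul_mem _ _ <| Submodule.mem_span_singleton_self _) hy
          exact (smul_eq_zero.1 this).resolve_right hxne)
        (by
          intro y
          refine ⟨-B x y / B x x, fun z hz => ?_⟩
          obtain ⟨c, rfl⟩ := Submodule.mem_span_singleton.1 hz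
          change B (c • x) (y + (-B x y / B x x) • x) = 0
          rw [map_smul, LinearMap.smul_apply, map_add, map_smul, smul_eq_mul, smul_eq_mul,
            div_mul_cancel₀ _ hx0, add_neg_cancel, mul_zero])
    have hb : (b : Fin (d + 1 + 1) → V) = Fin.cons x ((↑) ∘ e') := Basis.coe_mkFinCons _ _ _ _
    have hb0 : b 0 = x := by rw [hb]; rfl
    have hbs : ∀ i : Fin (d + 1), b i.succ = (e' i : V) := by
      intro i
      rw [hb]
      rfl
    have hxe : ∀ i : Fin (d + 1), B x (e' i : V) = 0 := fun i =>
      (e' i).2 x (Submodule.mem_span_singleton_self x)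
    refine ⟨b, ?_, ?_, ?_⟩
    · intro i j
      refine Fin.cases ?_ (fun i => ?_) i <;> refine Fin.cases ?_ (fun j => ?_) j <;> intro hij
      · exact (hij rfl).elim
      · rw [hb0, hbs]
        exact hxe j
      · rw [hb0, hbs, hs.eq]
        exact hxe i
      · rw [hbs, hbs]
        exact he'o i j (fun h => hij (by rw [h]))
    · intro i
      refine Fin.cases ?_ (fun i => ?_) i
      · intro _
        rw [hb0, hx]
      · intro hi
        rw [hbs]
        exact he'1 i (fun h => hi (by rw [h]; rfl))
    · have : Fin.last (d + 1) = (Fin.last d).succ := rfl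
      rw [this, hbs]
      exact he'l

end normal

section gram

variable {V : Type*} [AddCommGroup V] [Module F V]

/-- The Gram determinant of an orthogonal basis whose non-last vectors have norm one. -/
theorem det_gram_normal {d : ℕ} {B : LinearMap.BilinForm F V} (e : Basis (Fin (d + 1)) F V)
    (ho : ∀ i j, i ≠ j → B (e i) (e j) = 0) (h1 : ∀ i, i ≠ Fin.last d → B (e i) (e i) = 1) :
    (LinearMap.BilinForm.toMatrix e B).det = B (e (Fin.last d)) (e (Fin.last d)) := by
  have hdiag : LinearMap.BilinForm.toMatrix e B = Matrix.diagonal (fun i => B (e i) (e i)) := by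
    ext i j
    by_cases hij : i = j
    · subst hij
      simp [LinearMap.BilinForm.toMatrix_apply]
    · simp [LinearMap.BilinForm.toMatrix_apply, hij, ho i j hij]
  rw [hdiag, Matrix.det_diagonal, Fin.prod_univ_castSucc]
  have : ∀ i : Fin d, B (e i.castSucc) (e i.castSucc) = 1 := fun i =>
    h1 _ (Fin.castSucc_lt_last i).ne
  simp [this]

theorem discEq_smul {ι : Type} [Fintype ι] [DecidableEq ι] (B : LinearMap.BilinForm F V)
    (b : Basis ι F V) (c : F) :
    DiscEq (c • B) (c ^ Fintype.card ι * (LinearMap.BilinForm.toMatrix b B).det) := by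
  refine ⟨ι, inferInstance, inferInstance, b, ?_⟩
  rw [map_smul, Matrix.det_smul]

end gram

end Cfsg.Agent.Helper14
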