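-- helper14: pieces R2, INT, INJ of CALL S4632 (helper95): relations between `hat` and `phi2`
-- in the Zorn model of `G2(F)`.
import Mathlib
import Cfsg.Agent.Helper95.G2SylDefs

set_option autoImplicit false

namespace Cfsg.Agent.Helper14.G2SylA

open Matrix Cfsg.Agent.Helper95.G2Syl

variable {F : Type*} [Field F]

-- === PIECE R2 ===
theorem g2_rel2 (t : Fˣ) : phi2 F (sdiag t) = hat F (gdiag t⁻¹ t⁻¹) := by
  apply Units.ext
  rw [phi2_coe, hat_coe, sdiag_coe, gdiag_coe]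
  rw [Matrix.ext_iff_mulVec]
  intro v
  rw [mphi_mulVec, m3_mulVec]
  have ht : (t : F) ≠ 0 := t.ne_zero
  ext i
  fin_cases i <;> simp [hA, hB, Units.val_inv_eq_inv_val] <;> field_simp

/-- the four entries of `h` read off from `hat F h` -/
theorem g2_hat_entries (h : GL (Fin 2) F) :
    ((hat F h : GL (Fin 8) F) : Matrix (Fin 8) (Fin 8) F) 2 2 = (h : Matrix (Fin 2) (Fin 2) F) 0 0 ∧
    ((hat F h : GL (Fin 8) F) : Matrix (Fin 8) (Fin 8) F) 2 3 = (h : Matrix (Fin 2) (Fin 2) F) 0 1 ∧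
    ((hat F h : GL (Fin 8) F) : Matrix (Fin 8) (Fin 8) F) 3 2 = (h : Matrix (Fin 2) (Fin 2) F) 1 0 ∧
    ((hat F h : GL (Fin 8) F) : Matrix (Fin 8) (Fin 8) F) 3 3 = (h : Matrix (Fin 2) (Fin 2) F) 1 1 := by
  rw [hat_coe]
  refine ⟨?_, ?_, ?_, ?_⟩ <;> simp [m3, hA]

/-- the four entries of `c` read off from `phi2 F c` -/
theorem g2_phi2_entries (c : Matrix.SpecialLinearGroup (Fin 2) F) :
    ((phi2 F c : GL (Fin 8) F) : Matrix (Fin 8) (Fin 8) F) 6 6 = (c : Matrix (Fin 2) (Fin 2) F) 0 0 ∧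
    ((phi2 F c : GL (Fin 8) F) : Matrix (Fin 8) (Fin 8) F) 6 2 = -(c : Matrix (Fin 2) (Fin 2) F) 0 1 ∧
    ((phi2 F c : GL (Fin 8) F) : Matrix (Fin 8) (Fin 8) F) 2 6 = -(c : Matrix (Fin 2) (Fin 2) F) 1 0 ∧
    ((phi2 F c : GL (Fin 8) F) : Matrix (Fin 8) (Fin 8) F) 2 2 = (c : Matrix (Fin 2) (Fin 2) F) 1 1 ∧
    ((phi2 F c : GL (Fin 8) F) : Matrix (Fin 8) (Fin 8) F) 2 3 = 0 ∧
    ((phi2 F c : GL (Fin 8) F) : Matrix (Fin 8) (Fin 8) F) 3 2 = 0 ∧
    ((phi2 F c : GL (Fin 8) F) : Matrix (Fin 8) (Fin 8) F) 3 3 = (c : Matrix (Fin 2) (Fin 2) F) 1 1 := by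
  rw [phi2_coe]
  refine ⟨?_, ?_, ?_, ?_, ?_, ?_, ?_⟩ <;> simp [mphi]

-- === PIECE INT ===
theorem g2_int (h : GL (Fin 2) F) (c : Matrix.SpecialLinearGroup (Fin 2) F) (hc : hat F h = phi2 F c) :
    ∃ t : Fˣ, h = gdiag t t := by
  obtain ⟨h22, h23, h32, h33⟩ := g2_hat_entries h
  obtain ⟨-, -, -, c22, c23, c32, c33⟩ := g2_phi2_entries c
  rw [hc] at h22 h23 h32 h33
  have e00 : (h : Matrix (Fin 2) (Fin 2) F) 0 0 = (c : Matrix (Fin 2) (Fin 2) F) 1 1 := by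
    rw [← h22, c22]
  have e01 : (h : Matrix (Fin 2) (Fin 2) F) 0 1 = 0 := by rw [← h23, c23]
  have e10 : (h : Matrix (Fin 2) (Fin 2) F) 1 0 = 0 := by rw [← h32, c32]
  have e11 : (h : Matrix (Fin 2) (Fin 2) F) 1 1 = (c : Matrix (Fin 2) (Fin 2) F) 1 1 := by
    rw [← h33, c33]
  have hdet : (h : Matrix (Fin 2) (Fin 2) F).det ≠ 0 := by
    rw [← Matrix.GeneralLinearGroup.val_det_apply]
    exact (Matrix.GeneralLinearGroup.det h).ne_zero
  rw [Matrix.det_fin_two, e00, e01, e10, e11, zero_mul, sub_zero] at hdet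
  have hs : (c : Matrix (Fin 2) (Fin 2) F) 1 1 ≠ 0 := by
    intro h0
    apply hdet
    rw [h0, zero_mul]
  refine ⟨Units.mk0 _ hs, ?_⟩
  apply Units.ext
  rw [gdiag_coe]
  ext i j
  fin_cases i <;> fin_cases j <;> simp [e00, e01, e10, e11]

-- === PIECE INJ ===
theorem g2_hat_injective : Function.Injective (hat F) := by
  intro h h' hh
  obtain ⟨a22, a23, a32, a33⟩ := g2_hat_entries h
  obtain ⟨b22, b23, b32, b33⟩ := g2_hat_entries h'
  rw [hh] at a22 a23 a32 a33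
  apply Units.ext
  ext i j
  fin_cases i <;> fin_cases j
  · exact a22.symm.trans b22
  · exact a23.symm.trans b23
  · exact a32.symm.trans b32
  · exact a33.symm.trans b33

theorem g2_phi2_injective : Function.Injective (phi2 F) := by
  intro c c' hh
  obtain ⟨a66, a62, a26, a22, -, -, -⟩ := g2_phi2_entries c
  obtain ⟨b66, b62, b26, b22, -, -, -⟩ := g2_phi2_entries c'
  rw [hh] at a66 a62 a26 a22
  apply Subtype.ext
  ext i j
  fin_cases i <;> fin_cases j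
  · exact a66.symm.trans b66
  · exact neg_injective (a62.symm.trans b62)
  · exact neg_injective (a26.symm.trans b26)
  · exact a22.symm.trans b22

end Cfsg.Agent.Helper14.G2SylA
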