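-- helper14: pieces SL3V, T1, N1, N2 of CALL S4632 (helper95): normal forms of idempotents of
-- the Zorn algebra under `phi3 (SL_3)` and `phi2 (SL_2)`.
import Mathlib
import Cfsg.Agent.Helper95.G2SylDefs

set_option autoImplicit false

namespace Cfsg.Agent.Helper14.G2SylT

open Matrix Cfsg.Agent.Helper95.G2Syl

variable {F : Type*} [Field F]

-- === PIECE SL3V ===
theorem g2_sl3_vec (v : Fin 3 → F) :
    ∃ A : Matrix.SpecialLinearGroup (Fin 3) F,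
      ((A : Matrix (Fin 3) (Fin 3) F) *ᵥ v) 1 = 0 ∧ ((A : Matrix (Fin 3) (Fin 3) F) *ᵥ v) 2 = 0 := by
  by_cases h0 : v 0 = 0
  · by_cases h1 : v 1 = 0
    · refine ⟨⟨!![0, 0, 1; 0, 1, 0; -1, 0, 0], by simp [Matrix.det_fin_three]⟩, ?_, ?_⟩
      · simp [Matrix.mulVec, dotProduct, Fin.sum_univ_three, h1]
      · simp [Matrix.mulVec, dotProduct, Fin.sum_univ_three, h0]
    · refine ⟨⟨!![0, 1, 0; -1, 0, 0; 0, -(v 2 / v 1), 1], by simp [Matrix.det_fin_three]⟩, ?_, ?_⟩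
      · simp [Matrix.mulVec, dotProduct, Fin.sum_univ_three, h0]
      · simp [Matrix.mulVec, dotProduct, Fin.sum_univ_three]
        field_simp
        ring
  · refine ⟨⟨!![1, 0, 0; -(v 1 / v 0), 1, 0; -(v 2 / v 0), 0, 1], by simp [Matrix.det_fin_three]⟩,
      ?_, ?_⟩
    · simp [Matrix.mulVec, dotProduct, Fin.sum_univ_three]
      field_simp
      ring
    · simp [Matrix.mulVec, dotProduct, Fin.sum_univ_three]
      field_simp
      ring

/-- idempotents different from `0`, `1`: the coordinate description (forward direction) -/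
theorem g2_idem_fwd (x : Fin 8 → F) (hx : x ∈ idem F) :
    x 0 + x 7 = 1 ∧ x 1 * x 4 + x 2 * x 5 + x 3 * x 6 = x 0 * x 7 := by
  obtain ⟨hxx, hx0, hx1⟩ := hx
  rw [zornMul_apply] at hxx
  have e0' : x 0 * x 0 + (x 1 * x 4 + x 2 * x 5 + x 3 * x 6) = x 0 := congrFun hxx 0
  have e1 : x 0 * x 1 + x 7 * x 1 - (x 5 * x 6 - x 6 * x 5) = x 1 := congrFun hxx 1
  have e2 : x 0 * x 2 + x 7 * x 2 - (x 6 * x 4 - x 4 * x 6) = x 2 := congrFun hxx 2
  have e3 : x 0 * x 3 + x 7 * x 3 - (x 4 * x 5 - x 5 * x 4) = x 3 := congrFun hxx 3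
  have e4 : x 0 * x 4 + x 7 * x 4 + (x 2 * x 3 - x 3 * x 2) = x 4 := congrFun hxx 4
  have e5 : x 0 * x 5 + x 7 * x 5 + (x 3 * x 1 - x 1 * x 3) = x 5 := congrFun hxx 5
  have e6 : x 0 * x 6 + x 7 * x 6 + (x 1 * x 2 - x 2 * x 1) = x 6 := congrFun hxx 6
  have e7 : x 4 * x 1 + x 5 * x 2 + x 6 * x 3 + x 7 * x 7 = x 7 := congrFun hxx 7
  have hσ : x 0 + x 7 = 1 := by
    by_contra hne
    have hσ0 : x 0 + x 7 - 1 ≠ 0 := sub_ne_zero.mpr hne
    have z1 : x 1 = 0 := (mul_eq_zero.mp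
      (show (x 0 + x 7 - 1) * x 1 = 0 by linear_combination e1)).resolve_left hσ0
    have z2 : x 2 = 0 := (mul_eq_zero.mp
      (show (x 0 + x 7 - 1) * x 2 = 0 by linear_combination e2)).resolve_left hσ0
    have z3 : x 3 = 0 := (mul_eq_zero.mp
      (show (x 0 + x 7 - 1) * x 3 = 0 by linear_combination e3)).resolve_left hσ0
    have z4 : x 4 = 0 := (mul_eq_zero.mp
      (show (x 0 + x 7 - 1) * x 4 = 0 by linear_combination e4)).resolve_left hσ0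
    have z5 : x 5 = 0 := (mul_eq_zero.mp
      (show (x 0 + x 7 - 1) * x 5 = 0 by linear_combination e5)).resolve_left hσ0
    have z6 : x 6 = 0 := (mul_eq_zero.mp
      (show (x 0 + x 7 - 1) * x 6 = 0 by linear_combination e6)).resolve_left hσ0
    have q0 : x 0 * (x 0 - 1) = 0 := by
      linear_combination e0' - x 4 * z1 - x 5 * z2 - x 6 * z3
    have q7 : x 7 * (x 7 - 1) = 0 := by
      linear_combination e7 - x 4 * z1 - x 5 * z2 - x 6 * z3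
    rcases mul_eq_zero.mp q0 with a0 | a0 <;> rcases mul_eq_zero.mp q7 with a7 | a7
    · apply hx0
      funext i
      fin_cases i
      · exact a0
      · exact z1
      · exact z2
      · exact z3
      · exact z4
      · exact z5
      · exact z6
      · exact a7
    · exact hne (by rw [a0, sub_eq_zero.mp a7, zero_add])
    · exact hne (by rw [sub_eq_zero.mp a0, a7, add_zero])
    · apply hx1
      funext i
      fin_cases i
      · exact sub_eq_zero.mp a0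
      · exact z1
      · exact z2
      · exact z3
      · exact z4
      · exact z5
      · exact z6
      · exact sub_eq_zero.mp a7
  refine ⟨hσ, ?_⟩
  linear_combination e0' - x 0 * hσ

/-- the image of `e0` under `mphi` -/
theorem g2_mphi_e0 (p q r s : F) :
    mphi p q r s *ᵥ e0 F = ![p * s, -(p * q), 0, 0, r * s, 0, 0, -(q * r)] := by
  rw [mphi_mulVec]
  ext i
  fin_cases i <;> simp [e0]

-- === PIECE T1 ===
theorem g2_trans_H (x : Fin 8 → F) (hx : x ∈ idem F) (h2 : x 2 = 0) (h3 : x 3 = 0)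
    (h5 : x 5 = 0) (h6 : x 6 = 0) :
    ∃ c : Matrix.SpecialLinearGroup (Fin 2) F,
      ((phi2 F c : GL (Fin 8) F) : Matrix (Fin 8) (Fin 8) F) *ᵥ e0 F = x := by
  obtain ⟨hσ, hab⟩ := g2_idem_fwd x hx
  have hab' : x 1 * x 4 = x 0 * x 7 := by
    rw [h2, h3] at hab
    linear_combination hab
  by_cases hα : x 0 = 0
  · have hβ : x 7 = 1 := by
      rw [hα, zero_add] at hσ
      exact hσ
    have hab0 : x 1 * x 4 = 0 := by rw [hab', hα, zero_mul]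
    obtain ⟨c, hc⟩ : ∃ c : Matrix.SpecialLinearGroup (Fin 2) F,
        (c : Matrix (Fin 2) (Fin 2) F) = !![-(x 1), 1; -1, -(x 4)] :=
      ⟨⟨!![-(x 1), 1; -1, -(x 4)], by rw [Matrix.det_fin_two_of]; linear_combination hab0⟩, rfl⟩
    refine ⟨c, ?_⟩
    · rw [phi2_coe, hc]
      show mphi (-(x 1)) 1 (-1) (-(x 4)) *ᵥ e0 F = x
      rw [g2_mphi_e0]
      funext i
      fin_cases i
      · show -(x 1) * -(x 4) = x 0
        rw [hα]
        linear_combination hab0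
      · show -(-(x 1) * 1) = x 1
        ring
      · exact h2.symm
      · exact h3.symm
      · show -1 * -(x 4) = x 4
        ring
      · exact h5.symm
      · exact h6.symm
      · show -(1 * -1) = x 7
        rw [hβ]
        ring
  · have h7 : x 1 / x 0 * x 4 = x 7 := by
      field_simp
      linear_combination hab'
    obtain ⟨c, hc⟩ : ∃ c : Matrix.SpecialLinearGroup (Fin 2) F,
        (c : Matrix (Fin 2) (Fin 2) F) = !![x 0, -(x 1 / x 0); x 4, 1] :=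
      ⟨⟨!![x 0, -(x 1 / x 0); x 4, 1], by
        rw [Matrix.det_fin_two_of]; linear_combination h7 + hσ⟩, rfl⟩
    refine ⟨c, ?_⟩
    · rw [phi2_coe, hc]
      show mphi (x 0) (-(x 1 / x 0)) (x 4) 1 *ᵥ e0 F = x
      rw [g2_mphi_e0]
      funext i
      fin_cases i
      · show x 0 * 1 = x 0
        ring
      · show -(x 0 * -(x 1 / x 0)) = x 1
        field_simp
      · exact h2.symm
      · exact h3.symm
      · show x 4 * 1 = x 4
        ring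
      · exact h5.symm
      · exact h6.symm
      · show -(-(x 1 / x 0) * x 4) = x 7
        linear_combination h7

/-- the action of `phi3 A` in coordinates -/
theorem g2_phi3_apply (A : Matrix.SpecialLinearGroup (Fin 3) F) (x : Fin 8 → F) :
    ((phi3 F A : GL (Fin 8) F) : Matrix (Fin 8) (Fin 8) F) *ᵥ x =
      ![x 0,
        ((A : Matrix (Fin 3) (Fin 3) F) *ᵥ ![x 1, x 2, x 3]) 0,
        ((A : Matrix (Fin 3) (Fin 3) F) *ᵥ ![x 1, x 2, x 3]) 1,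
        ((A : Matrix (Fin 3) (Fin 3) F) *ᵥ ![x 1, x 2, x 3]) 2,
        (((A⁻¹ : Matrix.SpecialLinearGroup (Fin 3) F) : Matrix (Fin 3) (Fin 3) F)ᵀ
          *ᵥ ![x 4, x 5, x 6]) 0,
        (((A⁻¹ : Matrix.SpecialLinearGroup (Fin 3) F) : Matrix (Fin 3) (Fin 3) F)ᵀ
          *ᵥ ![x 4, x 5, x 6]) 1,
        (((A⁻¹ : Matrix.SpecialLinearGroup (Fin 3) F) : Matrix (Fin 3) (Fin 3) F)ᵀ
          *ᵥ ![x 4, x 5, x 6]) 2,
        x 7] := by
  rw [phi3_coe, m3_mulVec]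
  ext i
  fin_cases i <;> simp [Matrix.mulVec, dotProduct, Fin.sum_univ_three]

/-- `A` on `a` and `A⁻ᵀ` on `b` preserve the pairing -/
theorem g2_sl3_dot (A : Matrix.SpecialLinearGroup (Fin 3) F) (a b : Fin 3 → F) :
    ((A : Matrix (Fin 3) (Fin 3) F) *ᵥ a) ⬝ᵥ
      (((A⁻¹ : Matrix.SpecialLinearGroup (Fin 3) F) : Matrix (Fin 3) (Fin 3) F)ᵀ *ᵥ b)
      = a ⬝ᵥ b := by
  rw [Matrix.mulVec_transpose, dotProduct_comm ((A : Matrix (Fin 3) (Fin 3) F) *ᵥ a),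
    ← Matrix.dotProduct_mulVec, Matrix.mulVec_mulVec, ← Matrix.SpecialLinearGroup.coe_mul,
    inv_mul_cancel, Matrix.SpecialLinearGroup.coe_one, Matrix.one_mulVec, dotProduct_comm b a]

/-- the upper unitriangular elements of `SL_3` under `phi3` -/
theorem g2_phi3_tri (t2 t3 : F) (y : Fin 8 → F) :
    ∃ A2 : Matrix.SpecialLinearGroup (Fin 3) F,
      (((phi3 F A2 : GL (Fin 8) F) : Matrix (Fin 8) (Fin 8) F) *ᵥ y) 2 = y 2 ∧
      (((phi3 F A2 : GL (Fin 8) F) : Matrix (Fin 8) (Fin 8) F) *ᵥ y) 3 = y 3 ∧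
      (((phi3 F A2 : GL (Fin 8) F) : Matrix (Fin 8) (Fin 8) F) *ᵥ y) 5 = y 5 - t2 * y 4 ∧
      (((phi3 F A2 : GL (Fin 8) F) : Matrix (Fin 8) (Fin 8) F) *ᵥ y) 6 = y 6 - t3 * y 4 := by
  obtain ⟨A2, hA2⟩ : ∃ A2 : Matrix.SpecialLinearGroup (Fin 3) F,
      (A2 : Matrix (Fin 3) (Fin 3) F) = !![1, t2, t3; 0, 1, 0; 0, 0, 1] :=
    ⟨⟨!![1, t2, t3; 0, 1, 0; 0, 0, 1], by simp [Matrix.det_fin_three]⟩, rfl⟩
  refine ⟨A2, ?_, ?_, ?_, ?_⟩ <;>
    rw [phi3_coe, m3_mulVec, Matrix.SpecialLinearGroup.coe_inv, hA2] <;>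
    simp [Matrix.adjugate_fin_three] <;> ring

-- === PIECE N1 ===
theorem g2_norm1 (x : Fin 8 → F) (hx : x ∈ idem F) (h0 : x 0 ≠ 0) (h1 : x 0 ≠ 1) :
    ∃ A : Matrix.SpecialLinearGroup (Fin 3) F,
      (((phi3 F A : GL (Fin 8) F) : Matrix (Fin 8) (Fin 8) F) *ᵥ x) 2 = 0 ∧
      (((phi3 F A : GL (Fin 8) F) : Matrix (Fin 8) (Fin 8) F) *ᵥ x) 3 = 0 ∧
      (((phi3 F A : GL (Fin 8) F) : Matrix (Fin 8) (Fin 8) F) *ᵥ x) 5 = 0 ∧
      (((phi3 F A : GL (Fin 8) F) : Matrix (Fin 8) (Fin 8) F) *ᵥ x) 6 = 0 := by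
  obtain ⟨hσ, hab⟩ := g2_idem_fwd x hx
  have h7 : x 7 ≠ 0 := by
    intro h
    rw [h, add_zero] at hσ
    exact h1 hσ
  obtain ⟨A1, ha1, ha2⟩ := g2_sl3_vec ![x 1, x 2, x 3]
  obtain ⟨u, hu⟩ : ∃ u : Fin 3 → F,
      u = (A1 : Matrix (Fin 3) (Fin 3) F) *ᵥ ![x 1, x 2, x 3] := ⟨_, rfl⟩
  obtain ⟨b', hb'⟩ : ∃ b' : Fin 3 → F,
      b' = ((A1⁻¹ : Matrix.SpecialLinearGroup (Fin 3) F) : Matrix (Fin 3) (Fin 3) F)ᵀ
        *ᵥ ![x 4, x 5, x 6] := ⟨_, rfl⟩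
  rw [← hu] at ha1 ha2
  have hdot : u ⬝ᵥ b' = ![x 1, x 2, x 3] ⬝ᵥ ![x 4, x 5, x 6] := by
    rw [hu, hb']
    exact g2_sl3_dot A1 _ _
  have hdot' : u 0 * b' 0 + u 1 * b' 1 + u 2 * b' 2 = x 1 * x 4 + x 2 * x 5 + x 3 * x 6 := by
    have h := hdot
    rw [dotProduct, dotProduct, Fin.sum_univ_three, Fin.sum_univ_three] at h
    exact h
  obtain ⟨y, hy⟩ : ∃ y : Fin 8 → F,
      y = ((phi3 F A1 : GL (Fin 8) F) : Matrix (Fin 8) (Fin 8) F) *ᵥ x := ⟨_, rfl⟩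
  have hy' := hy
  rw [g2_phi3_apply, ← hu, ← hb'] at hy'
  have y2 : y 2 = 0 := by
    rw [hy']
    exact ha1
  have y3 : y 3 = 0 := by
    rw [hy']
    exact ha2
  have y4 : y 4 = b' 0 := by
    rw [hy']
    rfl
  have y5 : y 5 = b' 1 := by
    rw [hy']
    rfl
  have y6 : y 6 = b' 2 := by
    rw [hy']
    rfl
  have hb0 : b' 0 ≠ 0 := by
    intro hb
    have h8 : x 0 * x 7 = 0 := by
      rw [← hab, ← hdot', ha1, ha2, hb]
      ring
    rcases mul_eq_zero.mp h8 with h9 | h9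
    · exact h0 h9
    · exact h7 h9
  obtain ⟨A2, c2, c3, c5, c6⟩ := g2_phi3_tri (y 5 / y 4) (y 6 / y 4) y
  have hy4 : y 4 ≠ 0 := by
    rw [y4]
    exact hb0
  refine ⟨A2 * A1, ?_, ?_, ?_, ?_⟩
  · rw [map_mul, Units.val_mul, ← Matrix.mulVec_mulVec, ← hy, c2]
    exact y2
  · rw [map_mul, Units.val_mul, ← Matrix.mulVec_mulVec, ← hy, c3]
    exact y3
  · rw [map_mul, Units.val_mul, ← Matrix.mulVec_mulVec, ← hy, c5]
    field_simp
    ring
  · rw [map_mul, Units.val_mul, ← Matrix.mulVec_mulVec, ← hy, c6]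
    field_simp
    ring

-- === PIECE N2 ===
theorem g2_norm2 (h2 : (2 : F) ≠ 0) (x : Fin 8 → F) :
    ∃ g ∈ (phi3 F).range ⊔ (phi2 F).range,
      (((g : GL (Fin 8) F) : Matrix (Fin 8) (Fin 8) F) *ᵥ x) 0 ≠ 0 ∧
        (((g : GL (Fin 8) F) : Matrix (Fin 8) (Fin 8) F) *ᵥ x) 0 ≠ 1 ∨
      (((g : GL (Fin 8) F) : Matrix (Fin 8) (Fin 8) F) *ᵥ x) 2 = 0 ∧
        (((g : GL (Fin 8) F) : Matrix (Fin 8) (Fin 8) F) *ᵥ x) 3 = 0 ∧
        (((g : GL (Fin 8) F) : Matrix (Fin 8) (Fin 8) F) *ᵥ x) 5 = 0 ∧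
        (((g : GL (Fin 8) F) : Matrix (Fin 8) (Fin 8) F) *ᵥ x) 6 = 0 := by
  by_cases ha : x 1 = 0 ∧ x 2 = 0 ∧ x 3 = 0
  · obtain ⟨a1, a2, a3⟩ := ha
    obtain ⟨A', hb1, hb2⟩ := g2_sl3_vec ![x 4, x 5, x 6]
    obtain ⟨A, hA⟩ : ∃ A : Matrix.SpecialLinearGroup (Fin 3) F,
        ((A⁻¹ : Matrix.SpecialLinearGroup (Fin 3) F) : Matrix (Fin 3) (Fin 3) F)ᵀ
          = (A' : Matrix (Fin 3) (Fin 3) F) := by
      refine ⟨(A'⁻¹).transpose, ?_⟩
      show (Matrix.adjugate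
        ((A'⁻¹ : Matrix.SpecialLinearGroup (Fin 3) F) : Matrix (Fin 3) (Fin 3) F)ᵀ)ᵀ
          = (A' : Matrix (Fin 3) (Fin 3) F)
      rw [← Matrix.adjugate_transpose, Matrix.transpose_transpose,
        ← Matrix.SpecialLinearGroup.coe_inv, inv_inv]
    refine ⟨phi3 F A, Subgroup.mem_sup_left ⟨A, rfl⟩, Or.inr ?_⟩
    rw [g2_phi3_apply, hA]
    refine ⟨?_, ?_, hb1, hb2⟩
    · show ((A : Matrix (Fin 3) (Fin 3) F) *ᵥ ![x 1, x 2, x 3]) 1 = 0
      rw [a1, a2, a3]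
      simp [Matrix.mulVec, dotProduct, Fin.sum_univ_three]
    · show ((A : Matrix (Fin 3) (Fin 3) F) *ᵥ ![x 1, x 2, x 3]) 2 = 0
      rw [a1, a2, a3]
      simp [Matrix.mulVec, dotProduct, Fin.sum_univ_three]
  · obtain ⟨A1, ha1, ha2⟩ := g2_sl3_vec ![x 1, x 2, x 3]
    obtain ⟨u, hu⟩ : ∃ u : Fin 3 → F,
        u = (A1 : Matrix (Fin 3) (Fin 3) F) *ᵥ ![x 1, x 2, x 3] := ⟨_, rfl⟩
    rw [← hu] at ha1 ha2
    have hu0 : u 0 ≠ 0 := by
      intro h0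
      apply ha
      have huz : u = 0 := by
        funext i
        fin_cases i
        · exact h0
        · exact ha1
        · exact ha2
      have hinv : ![x 1, x 2, x 3]
          = ((A1⁻¹ : Matrix.SpecialLinearGroup (Fin 3) F) : Matrix (Fin 3) (Fin 3) F) *ᵥ u := by
        rw [hu, Matrix.mulVec_mulVec, ← Matrix.SpecialLinearGroup.coe_mul, inv_mul_cancel,
          Matrix.SpecialLinearGroup.coe_one, Matrix.one_mulVec]
      rw [huz, Matrix.mulVec_zero] at hinv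
      exact ⟨congrFun hinv 0, congrFun hinv 1, congrFun hinv 2⟩
    obtain ⟨y, hy⟩ : ∃ y : Fin 8 → F,
        y = ((phi3 F A1 : GL (Fin 8) F) : Matrix (Fin 8) (Fin 8) F) *ᵥ x := ⟨_, rfl⟩
    have hy' := hy
    rw [g2_phi3_apply, ← hu] at hy'
    have y0 : y 0 = x 0 := by
      rw [hy']
      rfl
    have y1 : y 1 = u 0 := by
      rw [hy']
      rfl
    have hval : (mphi (1 : F) 0 ((x 0 - 2) / u 0) 1 *ᵥ y) 0 = 2 := by
      rw [mphi_mulVec]
      show 1 * 1 * y 0 - 1 * ((x 0 - 2) / u 0) * y 1 + 0 * 1 * y 4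
        - 0 * ((x 0 - 2) / u 0) * y 7 = 2
      rw [y0, y1]
      field_simp
      ring
    obtain ⟨c, hc⟩ : ∃ c : Matrix.SpecialLinearGroup (Fin 2) F,
        (c : Matrix (Fin 2) (Fin 2) F) = !![1, 0; (x 0 - 2) / u 0, 1] :=
      ⟨⟨!![1, 0; (x 0 - 2) / u 0, 1], by rw [Matrix.det_fin_two_of]; ring⟩, rfl⟩
    refine ⟨phi2 F c * phi3 F A1, Subgroup.mul_mem _ (Subgroup.mem_sup_right ⟨c, rfl⟩)
        (Subgroup.mem_sup_left ⟨A1, rfl⟩), Or.inl ?_⟩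
    rw [Units.val_mul, ← Matrix.mulVec_mulVec, ← hy, phi2_coe, hc]
    refine ⟨?_, ?_⟩
    · show (mphi (1 : F) 0 ((x 0 - 2) / u 0) 1 *ᵥ y) 0 ≠ 0
      rw [hval]
      exact h2
    · show (mphi (1 : F) 0 ((x 0 - 2) / u 0) 1 *ᵥ y) 0 ≠ 1
      rw [hval]
      intro h21
      have h10 : (1 : F) = 0 := by linear_combination h21
      exact one_ne_zero h10

end Cfsg.Agent.Helper14.G2SylT
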