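-- helper14 library: piece DET of helper95's CALL S4629 (determinants of the block embeddings).
import Mathlib
import Cfsg.Agent.Helper95.OSylDefs

set_option autoImplicit false
open Matrix Cfsg
open Cfsg.Agent.Helper95.OSyl

namespace Cfsg.Agent.Helper14
universe u
variable {F : Type u} [Field F] {k r : ℕ}

theorem osyl_phi_det (c : Fin r → F) (g : Fin k → ↥(O2 F)) :
    (((Phi k c g : ↥(isometryGroup F ⇑(mQ k c))) : GL (MI k r) F) : Matrix (MI k r) (MI k r) F).det =
      ∏ i, (((g i : ↥(O2 F)) : GL (Fin 2) F) : Matrix (Fin 2) (Fin 2) F).det := by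
  rw [Phi_coe, Matrix.det_fromBlocks_zero₂₁, Matrix.det_blockDiagonal, Matrix.det_one, mul_one]

theorem osyl_eps_det (c : Fin r → F) (e : Fin r → ℤˣ) :
    (((Eps k c e : ↥(isometryGroup F ⇑(mQ k c))) : GL (MI k r) F) : Matrix (MI k r) (MI k r) F).det =
      ∏ l, (((e l : ℤˣ) : ℤ) : F) := by
  rw [Eps_coe, Matrix.det_fromBlocks_zero₂₁, Matrix.det_one, one_mul, Matrix.det_diagonal]

end Cfsg.Agent.Helper14
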