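-- helper14 library: piece ND of helper95's CALL S4629 (the model form is nondegenerate).
import Mathlib
import Cfsg.Agent.Helper95.OSylDefs

set_option autoImplicit false
open Matrix Cfsg
open Cfsg.Agent.Helper95.OSyl

namespace Cfsg.Agent.Helper14
universe u
variable {F : Type u} [Field F] {k r : ℕ}

theorem osyl_mQ_polar_single (c : Fin r → F) (x : MI k r → F) (i : MI k r) :
    QuadraticMap.polar (⇑(mQ k c)) x (Pi.single i 1) = 2 * mW k c i * x i := by
  rw [QuadraticMap.polar, mQ_apply, mQ_apply, mQ_apply, ← Finset.sum_sub_distrib,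
    ← Finset.sum_sub_distrib]
  rw [Finset.sum_eq_single i]
  · simp only [Pi.add_apply, Pi.single_eq_same]
    ring
  · intro j _ hji
    simp only [Pi.add_apply, Pi.single_eq_of_ne hji]
    ring
  · intro h
    exact absurd (Finset.mem_univ i) h

theorem osyl_mW_ne_zero (c : Fin r → F) (hc : ∀ l, c l ≠ 0) (i : MI k r) : mW k c i ≠ 0 := by
  rcases i with p | l
  · exact one_ne_zero
  · exact hc l

theorem osyl_mQ_nondeg (h2 : (2 : F) ≠ 0) (c : Fin r → F) (hc : ∀ l, c l ≠ 0) :
    (QuadraticMap.polarBilin (mQ k c)).Nondegenerate := by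
  have key : ∀ x : MI k r → F,
      (∀ i, QuadraticMap.polar (⇑(mQ k c)) x (Pi.single i 1) = 0) → x = 0 := by
    intro x hx
    funext i
    have h1 := hx i
    rw [osyl_mQ_polar_single] at h1
    rcases mul_eq_zero.mp h1 with h3 | h3
    · exact absurd h3 (mul_ne_zero h2 (osyl_mW_ne_zero c hc i))
    · exact h3
  refine ⟨?_, ?_⟩
  · intro x hx
    apply key
    intro i
    have h1 := hx (Pi.single i 1)
    rwa [QuadraticMap.polarBilin_apply_apply] at h1
  · intro y hy
    apply key
    intro i
    have h1 := hy (Pi.single i 1)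
    rwa [QuadraticMap.polarBilin_apply_apply, QuadraticMap.polar_comm] at h1

end Cfsg.Agent.Helper14
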