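-- helper14 library: piece REL of helper95's CALL S4629 (relations between Phi, Psi, Eps).
import Mathlib
import Cfsg.Agent.Helper95.OSylDefs

set_option autoImplicit false
open Matrix Cfsg
open Cfsg.Agent.Helper95.OSyl

namespace Cfsg.Agent.Helper14
universe u
variable {F : Type u} [Field F] {k r : ℕ}

theorem osyl_pm_block (σ : Equiv.Perm (Fin k)) (M : Fin k → Matrix (Fin 2) (Fin 2) F) :
    ((pmE σ).toPEquiv.toMatrix : Matrix (Fin 2 × Fin k) (Fin 2 × Fin k) F) * Matrix.blockDiagonal M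
      = Matrix.blockDiagonal (fun i => M (σ⁻¹ i)) * (pmE σ).toPEquiv.toMatrix := by
  rw [PEquiv.toMatrix_toPEquiv_mul, PEquiv.mul_toMatrix_toPEquiv]
  ext ⟨a, i⟩ ⟨b, j⟩
  have e1 : (pmE σ) (a, i) = (a, σ⁻¹ i) := rfl
  have e2 : (pmE σ).symm (b, j) = (b, σ j) := by
    rw [Equiv.symm_apply_eq]
    show (b, j) = (b, σ⁻¹ (σ j))
    simp
  rw [Matrix.submatrix_apply, Matrix.submatrix_apply, e1, e2, Matrix.blockDiagonal_apply,
    Matrix.blockDiagonal_apply]
  simp only [id]
  by_cases h : σ⁻¹ i = j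
  · have h' : i = σ j := by rw [← h]; simp
    rw [if_pos h, if_pos h']
  · have h' : ¬ i = σ j := by
      intro hh
      apply h
      rw [hh]
      simp
    rw [if_neg h, if_neg h']

theorem osyl_psi_phi (c : Fin r → F) (σ : Equiv.Perm (Fin k)) (g : Fin k → ↥(O2 F)) :
    Psi k c σ * Phi k c g * (Psi k c σ)⁻¹ = Phi k c (fun i => g (σ⁻¹ i)) := by
  rw [mul_inv_eq_iff_eq_mul]
  apply Subtype.ext
  apply Units.ext
  rw [Subgroup.coe_mul, Subgroup.coe_mul, Units.val_mul, Units.val_mul, Psi_coe, Phi_coe, Phi_coe,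
    Matrix.fromBlocks_multiply, Matrix.fromBlocks_multiply, osyl_pm_block]
  simp

theorem osyl_eps_phi (c : Fin r → F) (e : Fin r → ℤˣ) (g : Fin k → ↥(O2 F)) :
    Eps k c e * Phi k c g = Phi k c g * Eps k c e := by
  apply Subtype.ext
  apply Units.ext
  rw [Subgroup.coe_mul, Subgroup.coe_mul, Units.val_mul, Units.val_mul, Eps_coe, Phi_coe,
    Matrix.fromBlocks_multiply, Matrix.fromBlocks_multiply]
  simp

theorem osyl_eps_psi (c : Fin r → F) (e : Fin r → ℤˣ) (σ : Equiv.Perm (Fin k)) :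
    Eps k c e * Psi k c σ = Psi k c σ * Eps k c e := by
  apply Subtype.ext
  apply Units.ext
  rw [Subgroup.coe_mul, Subgroup.coe_mul, Units.val_mul, Units.val_mul, Eps_coe, Psi_coe,
    Matrix.fromBlocks_multiply, Matrix.fromBlocks_multiply]
  simp

end Cfsg.Agent.Helper14
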