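import Mathlib
import Cfsg.Prelude.Def_Classical
import Cfsg.Prelude.Def_ClassicalGeometry
import Cfsg.Agent.Helper13.Quad
import Cfsg.Agent.Helper43.Spinor2
import Cfsg.Agent.Helper94.QuadOdd
import Cfsg.Agent.S0794

set_option autoImplicit false

/-!
The centre of `Ω_{2m+1}(F)` (`m ≥ 3`, `2 ≠ 0`) is trivial.
-/

namespace Cfsg.Agent.Helper14

open scoped Matrix commutatorElement

section general

variable {F : Type*} [Field F] {ι : Type} [Fintype ι] [DecidableEq ι] (Q : QuadraticForm F (ι → F))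

/-- general index type version of S0794: Siegel transformations lie in `Ω`. -/
theorem siegel_mem_omega (hQ : (QuadraticMap.polarBilin Q).Nondegenerate)
    (u v : ι → F) (hu : Q u = 0) (hv : Q v = 0) (huv : QuadraticMap.polar ⇑Q u v = 0) (c : F)
    (h2 : (2 : F) ≠ 0) :
    ∃ g : ↥(Cfsg.isometryGroup F ⇑Q), g ∈ Cfsg.Omega F ⇑Q ∧
      ((g : Matrix.GeneralLinearGroup ι F) : Matrix ι ι F) = Cfsg.siegelMatrix ⇑Q u v c := by
  classical
  have hT1 : ∀ c : F, Cfsg.siegelMatrix ⇑Q u v c * Cfsg.siegelMatrix ⇑Q u v (-c) = 1 := by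
    intro c
    rw [Cfsg.Agent.Helper13.siegel_mul Q u v hu hv huv, add_neg_cancel,
      Cfsg.Agent.S0794.siegel_zero]
  have hT2 : ∀ c : F, Cfsg.siegelMatrix ⇑Q u v (-c) * Cfsg.siegelMatrix ⇑Q u v c = 1 := by
    intro c
    rw [Cfsg.Agent.Helper13.siegel_mul Q u v hu hv huv, neg_add_cancel,
      Cfsg.Agent.S0794.siegel_zero]
  let b : F → Matrix.GeneralLinearGroup ι F := fun c =>
    ⟨Cfsg.siegelMatrix ⇑Q u v c, Cfsg.siegelMatrix ⇑Q u v (-c), hT1 c, hT2 c⟩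
  have hb : ∀ c, b c ∈ Cfsg.isometryGroup F ⇑Q := by
    intro c x y
    exact Cfsg.Agent.Helper13.siegel_preserves Q u v hu hv huv _ x
  refine ⟨⟨b c, hb c⟩, ?_, rfl⟩
  have hone : Cfsg.siegelMatrix ⇑Q u v c = 1 →
      (⟨b c, hb c⟩ : ↥(Cfsg.isometryGroup F ⇑Q)) ∈ Cfsg.Omega F ⇑Q := by
    intro h1
    have : (⟨b c, hb c⟩ : ↥(Cfsg.isometryGroup F ⇑Q)) = 1 := by
      apply Subtype.ext
      apply Units.ext
      exact h1
    rw [this]
    exact Subgroup.one_mem _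
  by_cases hu0 : u = 0
  · subst hu0
    exact hone (Cfsg.Agent.S0794.siegel_eq_one_of_left_zero Q v c)
  by_cases hvu : ∃ β : F, v = β • u
  · obtain ⟨β, rfl⟩ := hvu
    exact hone (Cfsg.Agent.S0794.siegel_eq_one_of_smul Q u β c)
  push Not at hvu
  obtain ⟨u', hu', huu', hu'v⟩ := Cfsg.Agent.S0794.exists_partner Q hQ u v hu huv hu0 hvu
  have hsq := Cfsg.Agent.S0794.negMat_sq u u' hu hu' huu'
  let a₀ : Matrix.GeneralLinearGroup ι F :=
    ⟨Cfsg.Agent.S0794.negMat Q u u', Cfsg.Agent.S0794.negMat Q u u', hsq, hsq⟩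
  have ha : a₀ ∈ Cfsg.isometryGroup F ⇑Q := by
    intro x y
    exact Cfsg.Agent.S0794.negMat_preserves u u' hu hu' huu' x
  have hcomm : (⟨b c, hb c⟩ : ↥(Cfsg.isometryGroup F ⇑Q)) =
      ⁅(⟨a₀, ha⟩ : ↥(Cfsg.isometryGroup F ⇑Q)), ⟨b (-c / 2), hb _⟩⁆ := by
    apply Subtype.ext
    apply Units.ext
    show Cfsg.siegelMatrix ⇑Q u v c = Cfsg.Agent.S0794.negMat Q u u' *
      Cfsg.siegelMatrix ⇑Q u v (-c / 2) * Cfsg.Agent.S0794.negMat Q u u' *
      Cfsg.siegelMatrix ⇑Q u v (-(-c / 2))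
    rw [Cfsg.Agent.S0794.negMat_conj u u' v hu hu' huu' huv hu'v,
      Cfsg.Agent.Helper13.siegel_mul Q u v hu hv huv]
    congr 1
    field_simp
    ring
  rw [hcomm]
  exact Subgroup.commutator_mem_commutator (Subgroup.mem_top _) (Subgroup.mem_top _)

/-- The key consequence of commuting with a Siegel transformation. -/
theorem comm_siegel_apply (t : Matrix ι ι F) (u v x : ι → F)
    (ht : t * Cfsg.siegelMatrix ⇑Q u v 1 = Cfsg.siegelMatrix ⇑Q u v 1 * t)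
    (hux : QuadraticMap.polar ⇑Q u x = 1) (hvx : QuadraticMap.polar ⇑Q v x = 0) :
    t *ᵥ v = QuadraticMap.polar ⇑Q u (t *ᵥ x) • v - QuadraticMap.polar ⇑Q v (t *ᵥ x) • u := by
  have h1 := congrArg (fun M : Matrix ι ι F => M *ᵥ x) ht
  simp only [← Matrix.mulVec_mulVec] at h1
  rw [Cfsg.Agent.Helper13.siegelMatrix_mulVec, Cfsg.Agent.Helper13.siegelMatrix_mulVec, hux, hvx,
    mul_zero, zero_smul, sub_zero, mul_one, one_smul, Matrix.mulVec_add, one_mul, one_mul] at h1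
  have h3 : t *ᵥ v = (t *ᵥ x + t *ᵥ v) - t *ᵥ x := by abel
  rw [h3, h1]
  abel

end general

section odd

variable {F : Type*} [Field F] (m : ℕ)

/-- the anisotropic basis vector -/
def dVec (F : Type*) [Field F] (m : ℕ) : Unit ⊕ (Fin m ⊕ Fin m) → F := Pi.single (Sum.inl ()) 1

/-- the hyperbolic basis vectors `e i` -/
def eVec (F : Type*) [Field F] (m : ℕ) (i : Fin m) : Unit ⊕ (Fin m ⊕ Fin m) → F :=
  Pi.single (Sum.inr (Sum.inl i)) 1

/-- the hyperbolic basis vectors `f i` -/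
def fVec (F : Type*) [Field F] (m : ℕ) (i : Fin m) : Unit ⊕ (Fin m ⊕ Fin m) → F :=
  Pi.single (Sum.inr (Sum.inr i)) 1

theorem polar_eVec (i : Fin m) (x : Unit ⊕ (Fin m ⊕ Fin m) → F) :
    QuadraticMap.polar ⇑(Cfsg.Agent.Helper43.oddQF m F) (eVec F m i) x = x (Sum.inr (Sum.inr i)) := by
  rw [Cfsg.Agent.Helper43.oddQF_coe, Cfsg.Agent.Helper94.polar_quadFormOdd]
  simp [eVec, Pi.single_apply]

theorem polar_fVec (i : Fin m) (x : Unit ⊕ (Fin m ⊕ Fin m) → F) :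
    QuadraticMap.polar ⇑(Cfsg.Agent.Helper43.oddQF m F) (fVec F m i) x = x (Sum.inr (Sum.inl i)) := by
  rw [Cfsg.Agent.Helper43.oddQF_coe, Cfsg.Agent.Helper94.polar_quadFormOdd]
  simp [fVec, Pi.single_apply]

theorem polar_dVec (x : Unit ⊕ (Fin m ⊕ Fin m) → F) :
    QuadraticMap.polar ⇑(Cfsg.Agent.Helper43.oddQF m F) (dVec F m) x = 2 * x (Sum.inl ()) := by
  rw [Cfsg.Agent.Helper43.oddQF_coe, Cfsg.Agent.Helper94.polar_quadFormOdd]
  simp [dVec, Pi.single_apply]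

theorem Q_eVec (i : Fin m) : Cfsg.Agent.Helper43.oddQF m F (eVec F m i) = 0 := by
  show Cfsg.quadFormOdd m F (eVec F m i) = 0
  simp [Cfsg.quadFormOdd, eVec, Pi.single_apply]

theorem Q_fVec (i : Fin m) : Cfsg.Agent.Helper43.oddQF m F (fVec F m i) = 0 := by
  show Cfsg.quadFormOdd m F (fVec F m i) = 0
  simp [Cfsg.quadFormOdd, fVec, Pi.single_apply]

theorem Q_dVec : Cfsg.Agent.Helper43.oddQF m F (dVec F m) = 1 := by
  show Cfsg.quadFormOdd m F (dVec F m) = 1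
  simp [Cfsg.quadFormOdd, dVec, Pi.single_apply]

theorem oddQF_nondeg (h2 : (2 : F) ≠ 0) :
    (QuadraticMap.polarBilin (Cfsg.Agent.Helper43.oddQF m F)).Nondegenerate := by
  have key : ∀ z : Unit ⊕ (Fin m ⊕ Fin m) → F,
      (∀ x, QuadraticMap.polar ⇑(Cfsg.Agent.Helper43.oddQF m F) x z = 0) → z = 0 := by
    intro z hz
    funext l
    rcases l with ⟨⟩ | i | i
    · have h1 := hz (dVec F m)
      rw [polar_dVec] at h1
      rcases mul_eq_zero.mp h1 with h | h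
      · exact absurd h h2
      · exact h
    · have h1 := hz (fVec F m i)
      rw [polar_fVec] at h1
      exact h1
    · have h1 := hz (eVec F m i)
      rw [polar_eVec] at h1
      exact h1
  constructor
  · intro z hz
    apply key
    intro x
    have := hz x
    rw [QuadraticMap.polar_comm]
    exact this
  · intro z hz
    exact key z hz

theorem mulVec_eVec (t : Matrix (Unit ⊕ (Fin m ⊕ Fin m)) (Unit ⊕ (Fin m ⊕ Fin m)) F) (j : Fin m)
    (l : Unit ⊕ (Fin m ⊕ Fin m)) : (t *ᵥ eVec F m j) l = t l (Sum.inr (Sum.inl j)) := by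
  rw [eVec, Matrix.mulVec_single_one, Matrix.col_apply]

theorem mulVec_fVec (t : Matrix (Unit ⊕ (Fin m ⊕ Fin m)) (Unit ⊕ (Fin m ⊕ Fin m)) F) (j : Fin m)
    (l : Unit ⊕ (Fin m ⊕ Fin m)) : (t *ᵥ fVec F m j) l = t l (Sum.inr (Sum.inr j)) := by
  rw [fVec, Matrix.mulVec_single_one, Matrix.col_apply]

theorem mulVec_dVec (t : Matrix (Unit ⊕ (Fin m ⊕ Fin m)) (Unit ⊕ (Fin m ⊕ Fin m)) F)
    (l : Unit ⊕ (Fin m ⊕ Fin m)) : (t *ᵥ dVec F m) l = t l (Sum.inl ()) := by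
  rw [dVec, Matrix.mulVec_single_one, Matrix.col_apply]

theorem exists_ne_ne {m : ℕ} (hm : 3 ≤ m) (j k : Fin m) : ∃ i : Fin m, i ≠ j ∧ i ≠ k := by
  by_contra hcon
  push Not at hcon
  have hsub : (Finset.univ : Finset (Fin m)) ⊆ {j, k} := by
    intro i _
    by_cases hij : i = j
    · simp [hij]
    · simp [hcon i hij]
  have h1 := Finset.card_le_card hsub
  have h2 : ({j, k} : Finset (Fin m)).card ≤ 2 := Finset.card_le_two
  simp at h1
  omega

/-- A matrix commuting with all Siegel transformations of the odd-dimensional form is scalar. -/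
theorem scalar_of_comm_siegel (hm : 3 ≤ m)
    (t : Matrix (Unit ⊕ (Fin m ⊕ Fin m)) (Unit ⊕ (Fin m ⊕ Fin m)) F)
    (ht : ∀ u v : Unit ⊕ (Fin m ⊕ Fin m) → F, Cfsg.Agent.Helper43.oddQF m F u = 0 →
      Cfsg.Agent.Helper43.oddQF m F v = 0 →
      QuadraticMap.polar ⇑(Cfsg.Agent.Helper43.oddQF m F) u v = 0 →
      t * Cfsg.siegelMatrix ⇑(Cfsg.Agent.Helper43.oddQF m F) u v 1 =
        Cfsg.siegelMatrix ⇑(Cfsg.Agent.Helper43.oddQF m F) u v 1 * t) :
    ∃ c : F, t = c • (1 : Matrix (Unit ⊕ (Fin m ⊕ Fin m)) (Unit ⊕ (Fin m ⊕ Fin m)) F) := by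
  classical
  -- Step 1: off-diagonal entries of the `e` and `f` columns vanish
  have he : ∀ (j : Fin m) (l : Unit ⊕ (Fin m ⊕ Fin m)), l ≠ Sum.inr (Sum.inl j) →
      t l (Sum.inr (Sum.inl j)) = 0 := by
    intro j l hl
    obtain ⟨i, hij, hil⟩ : ∃ i : Fin m, i ≠ j ∧ l ≠ Sum.inr (Sum.inl i) := by
      rcases l with ⟨⟩ | k | k
      · obtain ⟨i, hi, -⟩ := exists_ne_ne hm j j
        exact ⟨i, hi, by simp⟩
      · obtain ⟨i, hi, hik⟩ := exists_ne_ne hm j k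
        exact ⟨i, hi, by simpa using fun h => hik h.symm⟩
      · obtain ⟨i, hi, -⟩ := exists_ne_ne hm j j
        exact ⟨i, hi, by simp⟩
    have key := comm_siegel_apply (Cfsg.Agent.Helper43.oddQF m F) t (eVec F m i) (eVec F m j)
      (fVec F m i)
      (ht _ _ (Q_eVec m i) (Q_eVec m j) (by rw [polar_eVec]; simp [eVec]))
      (by rw [polar_eVec]; simp [fVec]) (by rw [polar_eVec]; simp [fVec, hij])
    have h1 := congrFun key l
    rw [mulVec_eVec] at h1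
    rw [h1]
    simp [eVec, Pi.single_apply, hl, hil]
  have hf : ∀ (j : Fin m) (l : Unit ⊕ (Fin m ⊕ Fin m)), l ≠ Sum.inr (Sum.inr j) →
      t l (Sum.inr (Sum.inr j)) = 0 := by
    intro j l hl
    obtain ⟨i, hij, hil⟩ : ∃ i : Fin m, i ≠ j ∧ l ≠ Sum.inr (Sum.inr i) := by
      rcases l with ⟨⟩ | k | k
      · obtain ⟨i, hi, -⟩ := exists_ne_ne hm j j
        exact ⟨i, hi, by simp⟩
      · obtain ⟨i, hi, -⟩ := exists_ne_ne hm j j
        exact ⟨i, hi, by simp⟩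
      · obtain ⟨i, hi, hik⟩ := exists_ne_ne hm j k
        exact ⟨i, hi, by simpa using fun h => hik h.symm⟩
    have key := comm_siegel_apply (Cfsg.Agent.Helper43.oddQF m F) t (fVec F m i) (fVec F m j)
      (eVec F m i)
      (ht _ _ (Q_fVec m i) (Q_fVec m j) (by rw [polar_fVec]; simp [fVec]))
      (by rw [polar_fVec]; simp [eVec]) (by rw [polar_fVec]; simp [eVec, hij])
    have h1 := congrFun key l
    rw [mulVec_fVec] at h1
    rw [h1]
    simp [fVec, Pi.single_apply, hl, hil]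
  have hte : ∀ j : Fin m, t *ᵥ eVec F m j =
      t (Sum.inr (Sum.inl j)) (Sum.inr (Sum.inl j)) • eVec F m j := by
    intro j
    funext l
    rw [mulVec_eVec]
    by_cases hl : l = Sum.inr (Sum.inl j)
    · subst hl; simp [eVec]
    · rw [he j l hl]; simp [eVec, Pi.single_apply, hl]
  have htf : ∀ j : Fin m, t *ᵥ fVec F m j =
      t (Sum.inr (Sum.inr j)) (Sum.inr (Sum.inr j)) • fVec F m j := by
    intro j
    funext l
    rw [mulVec_fVec]
    by_cases hl : l = Sum.inr (Sum.inr j)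
    · subst hl; simp [fVec]
    · rw [hf j l hl]; simp [fVec, Pi.single_apply, hl]
  -- Step 2: the eigenvalues agree
  have hlm : ∀ j k : Fin m, j ≠ k →
      t (Sum.inr (Sum.inl j)) (Sum.inr (Sum.inl j)) = t (Sum.inr (Sum.inr k)) (Sum.inr (Sum.inr k)) := by
    intro j k hjk
    obtain ⟨i, hij, hik⟩ := exists_ne_ne hm j k
    have hQv : Cfsg.Agent.Helper43.oddQF m F (eVec F m j + fVec F m k) = 0 := by
      rw [Cfsg.Agent.Helper13.Q_add', Q_eVec, Q_fVec, polar_eVec]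
      simp [fVec, hjk]
    obtain ⟨γ, δ, key⟩ : ∃ γ δ : F, t *ᵥ (eVec F m j + fVec F m k) =
        γ • (eVec F m j + fVec F m k) - δ • eVec F m i :=
      ⟨_, _, comm_siegel_apply (Cfsg.Agent.Helper43.oddQF m F) t (eVec F m i)
        (eVec F m j + fVec F m k) (fVec F m i)
        (ht _ _ (Q_eVec m i) hQv (by rw [polar_eVec]; simp [eVec, fVec, hik]))
        (by rw [polar_eVec]; simp [fVec])
        (by rw [QuadraticMap.polar_add_left, polar_eVec, polar_fVec]; simp [fVec, hij])⟩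
    rw [Matrix.mulVec_add, hte, htf] at key
    have h1 := congrFun key (Sum.inr (Sum.inl j))
    have h2 := congrFun key (Sum.inr (Sum.inr k))
    simp [eVec, fVec, Pi.single_apply, hij.symm] at h1 h2
    rw [h1, h2]
  have hm0 : 0 < m := by omega
  obtain ⟨c, hc⟩ : ∃ c : F, c = t (Sum.inr (Sum.inl ⟨0, hm0⟩)) (Sum.inr (Sum.inl ⟨0, hm0⟩)) :=
    ⟨_, rfl⟩
  have hlam : ∀ j : Fin m, t (Sum.inr (Sum.inl j)) (Sum.inr (Sum.inl j)) = c := by
    intro j
    obtain ⟨k, hkj, hk0⟩ := exists_ne_ne hm j ⟨0, hm0⟩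
    rw [hc, hlm j k hkj.symm, hlm ⟨0, hm0⟩ k hk0.symm]
  have hmu : ∀ k : Fin m, t (Sum.inr (Sum.inr k)) (Sum.inr (Sum.inr k)) = c := by
    intro k
    obtain ⟨j, hjk, -⟩ := exists_ne_ne hm k k
    rw [← hlm j k hjk, hlam]
  simp only [hlam] at hte
  simp only [hmu] at htf
  -- Step 3: the anisotropic vector
  have htd : t *ᵥ dVec F m = c • dVec F m := by
    have hm1 : 1 < m := by omega
    have hj : (⟨0, hm0⟩ : Fin m) ≠ ⟨1, hm1⟩ := by
      intro h
      have := congrArg Fin.val h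
      simp at this
    have hQw : Cfsg.Agent.Helper43.oddQF m F (dVec F m + eVec F m ⟨0, hm0⟩ - fVec F m ⟨0, hm0⟩) = 0 := by
      show Cfsg.quadFormOdd m F (dVec F m + eVec F m ⟨0, hm0⟩ - fVec F m ⟨0, hm0⟩) = 0
      simp [Cfsg.quadFormOdd, dVec, eVec, fVec, Pi.single_apply]
    obtain ⟨γ, δ, hγ, hδ, key⟩ : ∃ γ δ : F, γ = c ∧ δ = 0 ∧
        t *ᵥ (dVec F m + eVec F m ⟨0, hm0⟩ - fVec F m ⟨0, hm0⟩) =
        γ • (dVec F m + eVec F m ⟨0, hm0⟩ - fVec F m ⟨0, hm0⟩) - δ • eVec F m ⟨1, hm1⟩ := by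
      refine ⟨_, _, ?_, ?_, comm_siegel_apply (Cfsg.Agent.Helper43.oddQF m F) t (eVec F m ⟨1, hm1⟩)
        (dVec F m + eVec F m ⟨0, hm0⟩ - fVec F m ⟨0, hm0⟩) (fVec F m ⟨1, hm1⟩)
        (ht _ _ (Q_eVec m _) hQw (by rw [polar_eVec]; simp [dVec, eVec, fVec, hj]))
        (by rw [polar_eVec]; simp [fVec])
        (by rw [QuadraticMap.polar_comm, polar_fVec]; simp [dVec, eVec, fVec, hj])⟩
      · rw [polar_eVec, htf]
        simp [fVec]
      · rw [htf, QuadraticMap.polar_smul_right, QuadraticMap.polar_comm, polar_fVec]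
        simp [dVec, eVec, fVec, hj]
    rw [hγ, hδ, Matrix.mulVec_sub, Matrix.mulVec_add, hte, htf] at key
    have h3 : t *ᵥ dVec F m = (t *ᵥ dVec F m + c • eVec F m ⟨0, hm0⟩ - c • fVec F m ⟨0, hm0⟩)
        - c • eVec F m ⟨0, hm0⟩ + c • fVec F m ⟨0, hm0⟩ := by abel
    rw [h3, key]
    module
  refine ⟨c, ?_⟩
  ext l p
  rw [Matrix.smul_apply, Matrix.one_apply]
  rcases p with ⟨⟩ | j | j
  · rw [← mulVec_dVec m t l, htd]
    simp [dVec, Pi.single_apply]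
  · rw [← mulVec_eVec m t j l, hte]
    simp [eVec, Pi.single_apply]
  · rw [← mulVec_fVec m t j l, htf]
    simp [fVec, Pi.single_apply]

/-- The centre of `Ω_{2m+1}(F)` is trivial (`m ≥ 3`, `2 ≠ 0`). -/
theorem center_omega_oddQF_eq_bot (h2 : (2 : F) ≠ 0) (hm : 3 ≤ m) :
    Subgroup.center ↥(Cfsg.Omega F ⇑(Cfsg.Agent.Helper43.oddQF m F)) = ⊥ := by
  classical
  rw [eq_bot_iff]
  intro z hz
  rw [Subgroup.mem_bot]
  rw [Subgroup.mem_center_iff] at hz
  obtain ⟨c, hc⟩ := scalar_of_comm_siegel m hm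
    ((z.1.1 : Matrix.GeneralLinearGroup (Unit ⊕ (Fin m ⊕ Fin m)) F) :
      Matrix (Unit ⊕ (Fin m ⊕ Fin m)) (Unit ⊕ (Fin m ⊕ Fin m)) F) (by
    intro u v hu hv huv
    obtain ⟨g, hg, hgm⟩ := siegel_mem_omega (Cfsg.Agent.Helper43.oddQF m F) (oddQF_nondeg m h2)
      u v hu hv huv 1 h2
    have h1 := hz ⟨g, hg⟩
    have h3 := congrArg (fun x : ↥(Cfsg.Omega F ⇑(Cfsg.Agent.Helper43.oddQF m F)) =>
      ((x.1.1 : Matrix.GeneralLinearGroup (Unit ⊕ (Fin m ⊕ Fin m)) F) :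
        Matrix (Unit ⊕ (Fin m ⊕ Fin m)) (Unit ⊕ (Fin m ⊕ Fin m)) F)) h1
    simp only [Subgroup.coe_mul, Units.val_mul] at h3
    rw [← hgm]
    exact h3.symm)
  have hiso : ∀ u : Unit ⊕ (Fin m ⊕ Fin m) → F, Cfsg.Agent.Helper43.oddQF m F
      (((z.1.1 : Matrix.GeneralLinearGroup (Unit ⊕ (Fin m ⊕ Fin m)) F) :
      Matrix (Unit ⊕ (Fin m ⊕ Fin m)) (Unit ⊕ (Fin m ⊕ Fin m)) F) *ᵥ u) =
      Cfsg.Agent.Helper43.oddQF m F u := fun u => z.1.2 u u
  have hcc : c * c = 1 := by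
    have h1 := hiso (dVec F m)
    rw [hc, Matrix.smul_mulVec, Matrix.one_mulVec, QuadraticMap.map_smul, Q_dVec] at h1
    simpa using h1
  have hdet : ((z.1.1 : Matrix.GeneralLinearGroup (Unit ⊕ (Fin m ⊕ Fin m)) F) :
      Matrix (Unit ⊕ (Fin m ⊕ Fin m)) (Unit ⊕ (Fin m ⊕ Fin m)) F).det = 1 := by
    let dethom : Cfsg.isometryGroup F ⇑(Cfsg.Agent.Helper43.oddQF m F) →* Fˣ :=
      (Matrix.GeneralLinearGroup.det).comp (Subgroup.subtype _)
    have h1 := Abelianization.commutator_subset_ker dethom z.2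
    have h3 : Matrix.GeneralLinearGroup.det z.1.1 = 1 := h1
    have h4 := congrArg Units.val h3
    simpa using h4
  have hc1 : c = 1 := by
    rw [hc, Matrix.det_smul, Matrix.det_one, mul_one] at hdet
    simp only [Fintype.card_sum, Fintype.card_unit, Fintype.card_fin] at hdet
    have h5 : c ^ (1 + (m + m)) = c := by
      rw [pow_add, pow_one, ← two_mul, pow_mul, pow_two, hcc, one_pow, mul_one]
    rw [h5] at hdet
    exact hdet
  apply Subtype.ext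
  apply Subtype.ext
  apply Units.ext
  rw [hc, hc1, one_smul]
  rfl

/-- The centre of `Ω_{2m+1}(F)` is trivial (`m ≥ 3`, `2 ≠ 0`), for the frozen form. -/
theorem center_omega_odd_eq_bot (h2 : (2 : F) ≠ 0) (hm : 3 ≤ m) :
    Subgroup.center ↥(Cfsg.Omega F (Cfsg.quadFormOdd m F)) = ⊥ :=
  center_omega_oddQF_eq_bot m h2 hm

end odd

end Cfsg.Agent.Helper14
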