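import Cfsg.Agent.Helper85.PiDefs
import Cfsg.Agent.Helper85.PiGen

/-!
# CALL S5113, piece SXR (helper14): receptivity in the candidate subsystem when `C_S(P) ≰ T`
-/

set_option autoImplicit false

namespace Cfsg.Agent.Helper14.PiSXR

open Cfsg Cfsg.FusionSystem Cfsg.Agent.Helper85 Cfsg.Agent.Helper88

variable {Ω : Type*} [Group Ω] {S : Subgroup Ω}

theorem pi_receptive_of_cent [Finite S] {p : ℕ} [Fact p.Prime] (hS : IsPGroup p S) {F : FusionSystem S}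
    {T : Subgroup Ω} (hh : PiHyp F p T) (hsp : PiSplit S T) (hfr : PiFrat F p T) {E : FusionSystem T}
    (hE : PiSys F p E) {P : Subgroup Ω} (hP : F.IsFullyNormalized P) (hPT : P ≤ T)
    (hX : ¬ centralizerIn S P ≤ T) : E.IsReceptive P := by
  refine ⟨hPT, fun Q φ hφ hr => ?_⟩
  obtain ⟨c, hcC, hcT⟩ := SetLike.not_le_iff_exists.1 hX
  obtain ⟨hcS, hcP⟩ := mem_centralizerIn_iff.1 hcC
  have hrecF := (Cfsg.Agent.Helper84.saturated_fullyNormalized hS F hh.sat hP).2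
  have hφE : IsMap E Q (extHom φ) := isMap_extHom hφ
  have hφG : PiGen F p T Q (extHom φ) := (hE Q _).1 hφE
  have hφF : IsMap F Q (extHom φ) := piGen_isMap hh.le hφG
  have himg : img Q (extHom φ) = P := (img_eq_range (fun x => (extHom_apply φ x).symm)).trans hr
  have hMmem : ∀ g ∈ extender T Q φ, g ∈ T ∧ g ∈ Subgroup.normalizer (Q : Set Ω) ∧
      ∃ h ∈ T, ∀ x ∈ Q, extHom φ (g * x * g⁻¹) = h * extHom φ x * h⁻¹ :=
    fun g hg => (mem_extender_iff (S := T) (f := extHom φ) (fun x => (extHom_apply φ x).symm) g).1 hg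
  obtain ⟨f', hf', hf'Q⟩ := receptive_extend hrecF hφF himg (N := extender T Q φ) (fun g hg => by
    obtain ⟨hgT, hgN, h, hhT, hc⟩ := hMmem g hg
    exact ⟨hh.le hgT, hgN, h, hh.le hhT, hc⟩)
  have hf'M : IsMap F (extender T Q φ) f' := hf'.restrict le_sup_left
  have hMT : extender T Q φ ≤ T := fun g hg => (hMmem g hg).1
  obtain ⟨s, hsS, hs⟩ := hfr (extender T Q φ) f' hf'M hMT
  obtain ⟨i, t, htT, hst⟩ := hsp c hcS hcT s hsS
  have hψG : PiGen F p T (extender T Q φ) (fun x => t * (s⁻¹ * f' x * s) * t⁻¹) :=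
    PiGen.comp hs (PiGen.conj (P := T) le_rfl htT) (piGen_mapsTo hS hh hs)
  obtain ⟨ψ, hψ, hψf⟩ := (hE (extender T Q φ) _).2 hψG
  refine ⟨ψ, hψ, fun x hxQ hxN => ?_⟩
  rw [hψf ⟨x, hxN⟩]
  show t * (s⁻¹ * f' x * s) * t⁻¹ = φ ⟨x, hxQ⟩
  rw [hf'Q x hxQ, extHom_apply' φ hxQ]
  have hy : φ ⟨x, hxQ⟩ ∈ P := hr ▸ ⟨⟨x, hxQ⟩, rfl⟩
  have hcomm : φ ⟨x, hxQ⟩ * c ^ i = c ^ i * φ ⟨x, hxQ⟩ :=
    (Commute.zpow_right (hcP _ hy) i).eq
  have e : t * ((c ^ i * t)⁻¹ * φ ⟨x, hxQ⟩ * (c ^ i * t)) * t⁻¹ = (c ^ i)⁻¹ * (φ ⟨x, hxQ⟩ * c ^ i) := by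
    group
  rw [hst, e, hcomm]
  group

end Cfsg.Agent.Helper14.PiSXR
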