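import Cfsg.Agent.Helper99.RuDefs

/-!
Piece PHI of CALL S2522: the choice of the functional `φ`.
-/

namespace Cfsg.Agent.Helper14

open Cfsg.Agent.Helper99 Module

universe u v

section
variable {K : Type u} [Field K] {X : Type v} [AddCommGroup X] [Module K X]

theorem ru_exists_ne2 (hK : 4 ≤ Cardinal.mk K) (u v : K) : ∃ t : K, t ≠ u ∧ t ≠ v := by
  obtain ⟨a, b, c, d, hab, hac, had, hbc, hbd, hcd⟩ := ru_four hK
  by_cases h1 : a ≠ u ∧ a ≠ v
  · exact ⟨a, h1⟩
  by_cases h2 : b ≠ u ∧ b ≠ v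
  · exact ⟨b, h2⟩
  by_cases h3 : c ≠ u ∧ c ≠ v
  · exact ⟨c, h3⟩
  exfalso
  have h1' : a = u ∨ a = v := by tauto
  have h2' : b = u ∨ b = v := by tauto
  have h3' : c = u ∨ c = v := by tauto
  rcases h1' with h1' | h1' <;> rcases h2' with h2' | h2' <;> rcases h3' with h3' | h3'
  · exact hab (h1'.trans h2'.symm)
  · exact hab (h1'.trans h2'.symm)
  · exact hac (h1'.trans h3'.symm)
  · exact hbc (h2'.trans h3'.symm)
  · exact hbc (h2'.trans h3'.symm)
  · exact hac (h1'.trans h3'.symm)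
  · exact hab (h1'.trans h2'.symm)
  · exact hab (h1'.trans h2'.symm)

theorem ru_sep [FiniteDimensional K X] (a0 v : X) (hv : v ∉ Submodule.span K {a0}) :
    ∃ f : Dual K X, f a0 = 0 ∧ f v ≠ 0 := by
  obtain ⟨f, hf, hp⟩ := Submodule.exists_dual_map_eq_bot_of_notMem hv inferInstance
  refine ⟨f, ?_, hf⟩
  have h : f a0 ∈ (Submodule.span K {a0}).map f :=
    Submodule.mem_map_of_mem (Submodule.mem_span_singleton_self a0)
  rw [hp] at h
  simpa using h

theorem ru_avoid2 [FiniteDimensional K X] (a0 v1 v2 : X) (h1 : v1 ∉ Submodule.span K {a0})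
    (h2 : v2 ∉ Submodule.span K {a0}) :
    ∃ f : Dual K X, f a0 = 0 ∧ f v1 ≠ 0 ∧ f v2 ≠ 0 := by
  obtain ⟨f1, hf1, hf1'⟩ := ru_sep a0 v1 h1
  obtain ⟨f2, hf2, hf2'⟩ := ru_sep a0 v2 h2
  by_cases c1 : f1 v2 = 0
  swap
  · exact ⟨f1, hf1, hf1', c1⟩
  by_cases c2 : f2 v1 = 0
  swap
  · exact ⟨f2, hf2, c2, hf2'⟩
  refine ⟨f1 + f2, ?_, ?_, ?_⟩
  · rw [LinearMap.add_apply, hf1, hf2, add_zero]
  · rw [LinearMap.add_apply, c2, add_zero]; exact hf1'
  · rw [LinearMap.add_apply, c1, zero_add]; exact hf2'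

theorem ru_avoid3 [FiniteDimensional K X] (hK : 4 ≤ Cardinal.mk K) (a0 v1 v2 v3 : X)
    (h1 : v1 ∉ Submodule.span K {a0}) (h2 : v2 ∉ Submodule.span K {a0})
    (h3 : v3 ∉ Submodule.span K {a0}) :
    ∃ f : Dual K X, f a0 = 0 ∧ f v1 ≠ 0 ∧ f v2 ≠ 0 ∧ f v3 ≠ 0 := by
  obtain ⟨θ, hθ0, hθ1, hθ2⟩ := ru_avoid2 a0 v1 v2 h1 h2
  by_cases c : θ v3 = 0
  swap
  · exact ⟨θ, hθ0, hθ1, hθ2, c⟩
  obtain ⟨f3, hf30, hf3⟩ := ru_sep a0 v3 h3
  obtain ⟨t, ht1, ht2⟩ := ru_exists_ne2 hK (-(f3 v1) / θ v1) (-(f3 v2) / θ v2)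
  refine ⟨f3 + t • θ, ?_, ?_, ?_, ?_⟩
  · rw [LinearMap.add_apply, LinearMap.smul_apply, hf30, hθ0, smul_zero, add_zero]
  · rw [LinearMap.add_apply, LinearMap.smul_apply, smul_eq_mul]
    intro h
    apply ht1
    rw [eq_div_iff hθ1]
    linear_combination h
  · rw [LinearMap.add_apply, LinearMap.smul_apply, smul_eq_mul]
    intro h
    apply ht2
    rw [eq_div_iff hθ2]
    linear_combination h
  · rw [LinearMap.add_apply, LinearMap.smul_apply, c, smul_zero, add_zero]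
    exact hf3

theorem ru_ker_notin [FiniteDimensional K X] (hm : 3 ≤ finrank K X) (ψ : Dual K X) (hψ : ψ ≠ 0)
    (a : X) : ∃ b : X, ψ b = 0 ∧ b ∉ Submodule.span K {a} := by
  by_contra hcon
  push_neg at hcon
  have hle : LinearMap.ker ψ ≤ Submodule.span K {a} :=
    fun b hb => hcon b (LinearMap.mem_ker.mp hb)
  have h1 := Submodule.finrank_mono hle
  have h2 : finrank K (Submodule.span K {a}) ≤ 1 := by
    refine (finrank_span_le_card ({a} : Set X)).trans ?_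
    simp
  have h3 := Module.Dual.finrank_ker_add_one_of_ne_zero hψ
  omega

theorem ru_indep (a b : X) (ha : a ≠ 0) (hb : b ∉ Submodule.span K {a}) (p q : K)
    (h : p • a + q • b = 0) : p = 0 ∧ q = 0 := by
  have hq : q = 0 := by
    by_contra hq
    apply hb
    rw [Submodule.mem_span_singleton]
    refine ⟨-(q⁻¹ * p), ?_⟩
    have h2 : q • b = -(p • a) := eq_neg_of_add_eq_zero_right h
    calc (-(q⁻¹ * p)) • a = q⁻¹ • (-(p • a)) := by rw [neg_smul, mul_smul, smul_neg]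
      _ = q⁻¹ • (q • b) := by rw [h2]
      _ = b := by rw [smul_smul, inv_mul_cancel₀ hq, one_smul]
  refine ⟨?_, hq⟩
  rw [hq, zero_smul, add_zero] at h
  rcases smul_eq_zero.mp h with h | h
  · exact h
  · exact absurd h ha

theorem ru_Y_notin (a b : X) (ha : a ≠ 0) (hb : b ∉ Submodule.span K {a}) (c : K) (hc : c ≠ 0)
    (x y : K) (hy : y ≠ 0) : c • a ∉ Submodule.span K {x • a + y • b} := by
  intro hmem
  obtain ⟨d, hd⟩ := Submodule.mem_span_singleton.mp hmem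
  have h0 : (d * x - c) • a + (d * y) • b = 0 := by
    have e : (d * x - c) • a + (d * y) • b = d • (x • a + y • b) - c • a := by
      module
    rw [e, hd, sub_self]
  obtain ⟨h1, h2⟩ := ru_indep a b ha hb _ _ h0
  have hd0 : d = 0 := by
    rcases mul_eq_zero.mp h2 with h | h
    · exact h
    · exact absurd h hy
  rw [hd0, zero_mul, zero_sub, neg_eq_zero] at h1
  exact hc h1

theorem ru_pick [FiniteDimensional K X] (hK : 4 ≤ Cardinal.mk K) (hm : 3 ≤ finrank K X)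
    (g : X →ₗ[K] X) (ψ : Dual K X) (hψ : ψ ≠ 0) (Y : X) (hY : Y ≠ 0) (a : X) (ha : ψ a = 0)
    (hga : g a ∉ Submodule.span K {a}) :
    ∃ a0 : X, ψ a0 = 0 ∧ g a0 ∉ Submodule.span K {a0} ∧ Y ∉ Submodule.span K {a0} := by
  by_cases hYa : Y ∈ Submodule.span K {a}
  swap
  · exact ⟨a, ha, hga, hYa⟩
  obtain ⟨c, hc⟩ := Submodule.mem_span_singleton.mp hYa
  have hc0 : c ≠ 0 := by
    rintro rfl
    rw [zero_smul] at hc
    exact hY hc.symm
  have ha0 : a ≠ 0 := by
    rintro rfl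
    apply hga
    rw [map_zero]
    exact Submodule.zero_mem _
  obtain ⟨b, hb, hba⟩ := ru_ker_notin hm ψ hψ a
  obtain ⟨t, ht0, ht1⟩ := ru_exists_ne2 hK 0 1
  have hYn : ∀ x y : K, y ≠ 0 → Y ∉ Submodule.span K {x • a + y • b} := by
    intro x y hy
    rw [← hc]
    exact ru_Y_notin a b ha0 hba c hc0 x y hy
  by_cases h1 : g b ∈ Submodule.span K {b}
  swap
  · refine ⟨b, hb, h1, ?_⟩
    have h := hYn 0 1 one_ne_zero
    rwa [zero_smul, zero_add, one_smul] at h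
  by_cases h2 : g (a + b) ∈ Submodule.span K {a + b}
  swap
  · refine ⟨a + b, by rw [map_add, ha, hb, add_zero], h2, ?_⟩
    have h := hYn 1 1 one_ne_zero
    rwa [one_smul, one_smul] at h
  by_cases h3 : g (a + t • b) ∈ Submodule.span K {a + t • b}
  swap
  · refine ⟨a + t • b, by rw [map_add, map_smul, ha, hb, smul_zero, add_zero], h3, ?_⟩
    have h := hYn 1 t ht0
    rwa [one_smul] at h
  exfalso
  obtain ⟨β, hβ⟩ := Submodule.mem_span_singleton.mp h1
  obtain ⟨γ, hγ⟩ := Submodule.mem_span_singleton.mp h2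
  obtain ⟨δ, hδ⟩ := Submodule.mem_span_singleton.mp h3
  rw [map_add] at hγ
  rw [map_add, map_smul] at hδ
  have hga' : g a = γ • (a + b) - β • b := by rw [hγ, hβ]; abel
  have h0 : (γ - δ) • a + (γ - β + t * β - δ * t) • b = 0 := by
    have e : (γ - δ) • a + (γ - β + t * β - δ * t) • b
        = (γ • (a + b) - β • b) + t • (β • b) - δ • (a + t • b) := by module
    rw [e, ← hga', hβ, hδ, sub_self]
  obtain ⟨e1, e2⟩ := ru_indep a b ha0 hba _ _ h0
  have e3 : γ = β := by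
    have h4 : (γ - β) * (1 - t) = 0 := by
      linear_combination e2 - t * e1
    rcases mul_eq_zero.mp h4 with h | h
    · exact sub_eq_zero.mp h
    · exact absurd (sub_eq_zero.mp h).symm ht1
  apply hga
  rw [Submodule.mem_span_singleton]
  refine ⟨γ, ?_⟩
  rw [hga', e3]
  module

theorem ru_finishA [FiniteDimensional K X] (hK : 4 ≤ Cardinal.mk K)
    (g : X →ₗ[K] X) (Y : X) (ψ : Dual K X) (hψ : ψ ≠ 0) (a0 : X) (ha0 : ψ a0 = 0)
    (hga0 : g a0 ∉ Submodule.span K {a0}) (hYa0 : Y ∉ Submodule.span K {a0}) :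
    ∃ φ : Dual K X, φ Y ≠ 0 ∧ (∀ t : K, φ ∘ₗ g ≠ t • φ) ∧ (∀ t : K, ψ ≠ t • (φ ∘ₗ g - φ)) ∧
      ((∃ k : X, k ≠ 0 ∧ g k = k) → ∃ k : X, g k = k ∧ φ k ≠ 0) := by
  have key : ∀ k : X, k ∉ Submodule.span K {a0} → ∃ φ : Dual K X, φ Y ≠ 0 ∧
      (∀ t : K, φ ∘ₗ g ≠ t • φ) ∧ (∀ t : K, ψ ≠ t • (φ ∘ₗ g - φ)) ∧ φ k ≠ 0 := by
    intro k hk
    obtain ⟨φ, h0, h1, h2, h3⟩ := ru_avoid3 hK a0 (g a0) Y k hga0 hYa0 hk
    refine ⟨φ, h2, ?_, ?_, h3⟩
    · intro t ht
      have h := congrArg (fun f : Dual K X => f a0) ht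
      simp only [LinearMap.comp_apply, LinearMap.smul_apply, h0, smul_zero] at h
      exact h1 h
    · intro t ht
      have h := congrArg (fun f : Dual K X => f a0) ht
      simp only [LinearMap.comp_apply, LinearMap.smul_apply, LinearMap.sub_apply, h0, ha0,
        sub_zero, smul_eq_mul] at h
      rcases mul_eq_zero.mp h.symm with h' | h'
      · apply hψ
        rw [ht, h', zero_smul]
      · exact h1 h'
  by_cases hfix : ∃ k : X, k ≠ 0 ∧ g k = k
  · obtain ⟨k, hk0, hgk⟩ := hfix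
    have hk : k ∉ Submodule.span K {a0} := by
      intro hmem
      obtain ⟨c, hc⟩ := Submodule.mem_span_singleton.mp hmem
      have hc0 : c ≠ 0 := by
        rintro rfl
        rw [zero_smul] at hc
        exact hk0 hc.symm
      apply hga0
      rw [Submodule.mem_span_singleton]
      refine ⟨1, ?_⟩
      rw [one_smul]
      have ha : a0 = c⁻¹ • k := by rw [← hc, smul_smul, inv_mul_cancel₀ hc0, one_smul]
      rw [ha, map_smul, hgk]
    obtain ⟨φ, h1, h2, h3, h4⟩ := key k hk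
    exact ⟨φ, h1, h2, h3, fun _ => ⟨k, hgk, h4⟩⟩
  · obtain ⟨φ, h1, h2, h3, _⟩ := key Y hYa0
    exact ⟨φ, h1, h2, h3, fun h => absurd h hfix⟩

theorem ru_caseZ [FiniteDimensional K X] (hK : 4 ≤ Cardinal.mk K) (hm : 3 ≤ finrank K X)
    (g : X →ₗ[K] X) (hg : RuGood g) (Y : X) (ψ : Dual K X) (hY : Y ≠ 0) (hψ : ψ ≠ 0)
    (hZ : ∀ a : X, ψ a = 0 → g a ∈ Submodule.span K {a}) :
    ∃ φ : Dual K X, φ Y ≠ 0 ∧ (∀ t : K, φ ∘ₗ g ≠ t • φ) ∧ (∀ t : K, ψ ≠ t • (φ ∘ₗ g - φ)) ∧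
      ((∃ k : X, k ≠ 0 ∧ g k = k) → ∃ k : X, g k = k ∧ φ k ≠ 0) := by
  obtain ⟨b0, hb0, hb0n⟩ := ru_ker_notin hm ψ hψ (0 : X)
  have hb00 : b0 ≠ 0 := by
    rintro rfl
    exact hb0n (Submodule.zero_mem _)
  obtain ⟨lam, hlam⟩ := Submodule.mem_span_singleton.mp (hZ b0 hb0)
  have hker : ∀ a : X, ψ a = 0 → g a = lam • a := by
    intro a ha
    by_cases hab : a ∈ Submodule.span K {b0}
    · obtain ⟨c, rfl⟩ := Submodule.mem_span_singleton.mp hab
      rw [map_smul, ← hlam]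
      exact smul_comm _ _ _
    · obtain ⟨α, hα⟩ := Submodule.mem_span_singleton.mp (hZ a ha)
      obtain ⟨γ, hγ⟩ := Submodule.mem_span_singleton.mp
        (hZ (a + b0) (by rw [map_add, ha, hb0, add_zero]))
      rw [map_add, ← hα, ← hlam] at hγ
      have h0 : (γ - lam) • b0 + (γ - α) • a = 0 := by
        have e : (γ - lam) • b0 + (γ - α) • a = γ • (a + b0) - (α • a + lam • b0) := by module
        rw [e, hγ, sub_self]
      obtain ⟨e1, e2⟩ := ru_indep b0 a hb00 hab _ _ h0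
      have e3 : α = lam := (sub_eq_zero.mp e2).symm.trans (sub_eq_zero.mp e1)
      rw [← hα, e3]
  obtain ⟨r0, hr0⟩ : ∃ r0 : X, ψ r0 = 1 := by
    have hx : ∃ x, ψ x ≠ 0 := by
      by_contra h
      push_neg at h
      exact hψ (LinearMap.ext fun x => by simpa using h x)
    obtain ⟨x, hx⟩ := hx
    exact ⟨(ψ x)⁻¹ • x, by rw [map_smul, smul_eq_mul, inv_mul_cancel₀ hx]⟩
  obtain ⟨r, hr⟩ : ∃ r : X, r = g r0 - lam • r0 := ⟨_, rfl⟩
  have hgv : ∀ v : X, g v = lam • v + ψ v • r := by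
    intro v
    have h1 : ψ (v - ψ v • r0) = 0 := by
      rw [map_sub, map_smul, hr0, smul_eq_mul, mul_one, sub_self]
    have h2 := hker _ h1
    rw [map_sub, map_smul] at h2
    have h3 : g v = lam • (v - ψ v • r0) + ψ v • g r0 := by rw [← h2]; abel
    rw [h3, hr]
    module
  have hr_ne : r ≠ 0 := by
    intro h0
    apply hg.1 lam
    ext v
    rw [hgv v, h0, smul_zero, add_zero]
    simp
  have hlam1 : lam ≠ 1 := by
    intro h1
    apply hg.2 r ψ
    ext v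
    rw [hgv v, h1, one_smul]
    simp
  have hn0 : ∀ v : X, v ≠ 0 → v ∉ Submodule.span K {(0 : X)} := by
    intro v hv hmem
    rw [Submodule.span_zero_singleton] at hmem
    exact hv ((Submodule.mem_bot K).mp hmem)
  obtain ⟨φ, -, hφY, hφr, hφb⟩ :=
    ru_avoid3 hK (0 : X) Y r b0 (hn0 Y hY) (hn0 r hr_ne) (hn0 b0 hb00)
  have hnm : ∀ s : K, φ ≠ s • ψ := by
    intro s hs
    apply hφb
    rw [hs, LinearMap.smul_apply, hb0, smul_zero]
  have hφg : ∀ v : X, φ (g v) = lam * φ v + ψ v * φ r := by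
    intro v
    rw [hgv v, map_add, map_smul, map_smul, smul_eq_mul, smul_eq_mul]
  refine ⟨φ, hφY, ?_, ?_, ?_⟩
  · intro t ht
    have h1 : ∀ v : X, (lam - t) * φ v + ψ v * φ r = 0 := by
      intro v
      have h := congrArg (fun f : Dual K X => f v) ht
      simp only [LinearMap.comp_apply, LinearMap.smul_apply, smul_eq_mul] at h
      rw [hφg v] at h
      linear_combination h
    by_cases hlt : lam = t
    · apply hψ
      ext v
      have h := h1 v
      rw [hlt, sub_self, zero_mul, zero_add] at h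
      rcases mul_eq_zero.mp h with h' | h'
      · simpa using h'
      · exact absurd h' hφr
    · apply hnm (-(φ r) / (lam - t))
      ext v
      have h := h1 v
      have hne : lam - t ≠ 0 := sub_ne_zero.mpr hlt
      rw [LinearMap.smul_apply, smul_eq_mul, div_mul_eq_mul_div, eq_div_iff hne]
      linear_combination h
  · intro t ht
    have h1 : ∀ v : X, ψ v = t * ((lam - 1) * φ v + ψ v * φ r) := by
      intro v
      have h := congrArg (fun f : Dual K X => f v) ht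
      simp only [LinearMap.comp_apply, LinearMap.smul_apply, LinearMap.sub_apply,
        smul_eq_mul] at h
      rw [hφg v] at h
      linear_combination h
    by_cases ht0 : t = 0
    · apply hψ
      ext v
      rw [h1 v, ht0, zero_mul]
      simp
    · apply hnm ((1 - t * φ r) / (t * (lam - 1)))
      ext v
      have h := h1 v
      have hne : lam - 1 ≠ 0 := sub_ne_zero.mpr hlam1
      rw [LinearMap.smul_apply, smul_eq_mul, div_mul_eq_mul_div,
        eq_div_iff (mul_ne_zero ht0 hne)]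
      linear_combination -h
  · rintro ⟨k, hk0, hgk⟩
    refine ⟨k, hgk, ?_⟩
    have h1 : (lam - 1) • k + ψ k • r = 0 := by
      have h := hgv k
      rw [hgk] at h
      have h2 : (lam - 1) • k + ψ k • r = (lam • k + ψ k • r) - k := by module
      rw [h2, ← h, sub_self]
    intro hφk
    have h2 := congrArg φ h1
    rw [map_add, map_smul, map_smul, hφk, smul_zero, zero_add, map_zero, smul_eq_mul] at h2
    rcases mul_eq_zero.mp h2 with h | h
    · rw [h, zero_smul, add_zero] at h1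
      rcases smul_eq_zero.mp h1 with h' | h'
      · exact hlam1 (sub_eq_zero.mp h')
      · exact hk0 h'
    · exact hφr h

/-- PIECE PHI. -/
theorem ru_phi [FiniteDimensional K X] (hK : 4 ≤ Cardinal.mk K) (hm : 3 ≤ finrank K X)
    (g : X →ₗ[K] X) (hg : RuGood g) (Y : X) (ψ : Dual K X) (hY : Y ≠ 0) (hψ : ψ ≠ 0) :
    ∃ φ : Dual K X, φ Y ≠ 0 ∧ (∀ t : K, φ ∘ₗ g ≠ t • φ) ∧ (∀ t : K, ψ ≠ t • (φ ∘ₗ g - φ)) ∧
      ((∃ k : X, k ≠ 0 ∧ g k = k) → ∃ k : X, g k = k ∧ φ k ≠ 0) := by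
  by_cases hA : ∃ a : X, ψ a = 0 ∧ g a ∉ Submodule.span K {a}
  · obtain ⟨a, ha, hga⟩ := hA
    obtain ⟨a0, h1, h2, h3⟩ := ru_pick hK hm g ψ hψ Y hY a ha hga
    exact ru_finishA hK g Y ψ hψ a0 h1 h2 h3
  · push_neg at hA
    exact ru_caseZ hK hm g hg Y ψ hY hψ hA

end

end Cfsg.Agent.Helper14
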