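-- helper14 library: glue of CALL S1906 (core structure lemma and transfer lemma), from the
-- pieces landed by helper11, helper19, helper20, helper46, helper59, helper61, helper78, helper82,
-- helper83, helper97 (and the SPLIT piece).
import Mathlib
import Cfsg.Agent.Helper19.S1906TWO
import Cfsg.Agent.Helper59.S1906DIAG
import Cfsg.Agent.Helper19.S1906FULL
import Cfsg.Agent.Helper83.S1906LINE
import Cfsg.Agent.Helper97.S1906COMPL
import Cfsg.Agent.Helper59.S1906SPLIT
import Cfsg.Agent.Helper19.S1906CHAR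
import Cfsg.Agent.Helper19.S1906CENT
import Cfsg.Agent.Helper46.S1906VA
import Cfsg.Agent.Helper82.S1906VB
import Cfsg.Agent.Helper61.S1906VC
import Cfsg.Agent.Helper20.S1906T1A
import Cfsg.Agent.Helper11.S1906TW
import Cfsg.Agent.Helper78.S1906T1B
import Cfsg.Agent.Helper11.S1906T2

set_option autoImplicit false

namespace Cfsg.Agent.Helper14.S1906G

section lin

variable {F : Type*} [Field F] {V : Type*} [AddCommGroup V] [Module F V] {P : Type*} [Group P]

/-- Core (glue): in a nonabelian `P` there are a central involution `u` and a linear character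
`lam` with `lam (α u) = -1` for every automorphism `α`. -/
theorem s1906_core [Fintype F] [Finite P] (hF : Odd (Fintype.card F)) (hP : IsPGroup 2 P)
    (hV : Module.finrank F V = 3) (ρ : Representation F P V)
    (hfaith : ∀ x : P, (∀ v : V, ρ x v = v) → x = 1)
    (E : Subgroup P) (hab : ∀ a ∈ E, ∀ a' ∈ E, a * a' = a' * a) (hsq : ∀ a ∈ E, a * a = 1)
    (hcard : Nat.card E = 8) (hnab : ¬ ∀ x y : P, x * y = y * x) :
    ∃ (u : P) (lam : P →* Fˣ), u * u = 1 ∧ (∀ x : P, x * u = u * x) ∧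
      ∀ α : P →* P, Function.Injective α → lam (α u) = -1 := by
  have h2 : (2 : F) ≠ 0 := Cfsg.Agent.Helper19.S1906P.s1906_two hF
  obtain ⟨b, hb⟩ := Cfsg.Agent.Helper59.S1906P.s1906_diag h2 hV ρ E hab hsq (fun a _ h => hfaith a h) hcard
  have hfull := Cfsg.Agent.Helper19.S1906P.s1906_full h2 ρ E (fun a _ h => hfaith a h) hcard b hb
  obtain ⟨L, hL1, hL⟩ := Cfsg.Agent.Helper83.S1906P.s1906_line hF hP hV ρ
  obtain ⟨W, hLW, hW⟩ := Cfsg.Agent.Helper97.S1906P.s1906_compl hP h2 ρ L hL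
  obtain ⟨u, huE, d, hdE, huL, huW, v₁, h1W, v₂, h2W, h10, h20, hd1, hd2, hspan⟩ :=
    Cfsg.Agent.Helper59.S1906P.s1906_split h2 hV ρ E b hfull L W hL1 hLW (fun a _ => hL a) (fun a _ => hW a)
  obtain ⟨lam, hlam⟩ := Cfsg.Agent.Helper19.S1906P.s1906_char ρ L hL1 hL
  have huc := Cfsg.Agent.Helper19.S1906P.s1906_cent ρ hfaith L W hLW hL hW u huL huW
  have hva := Cfsg.Agent.Helper46.S1906P.s1906_va h2 ρ hfaith L W hL1 hLW hL hW d v₁ v₂ h1W h2W h10 h20 hd1 hd2 hspan hnab
  obtain ⟨w, hw, hwL, hwW⟩ := Cfsg.Agent.Helper82.S1906P.s1906_vb hP ρ hfaith L W hLW lam hlam hva hnab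
  exact ⟨u, lam, hsq u huE, huc, fun α hα =>
    Cfsg.Agent.Helper61.S1906P.s1906_vc h2 ρ hfaith L W hL1 hLW lam hlam hva w hw hwL hwW u huc (hsq u huE) huL α hα⟩

end lin

section transfer

variable {G : Type*} [Group G] [Finite G] {A : Type*} [CommGroup A]

open scoped Classical in
/-- Transfer lemma (glue). -/
theorem s1906_T (hG : ∀ H : Subgroup G, H.index ≠ 2) (X : Sylow 2 G)
    (ϕ : ↥(X : Subgroup G) →* A) (u : G) (huX : u ∈ (X : Subgroup G)) (hu2 : u * u = 1)
    (huc : ∀ x ∈ (X : Subgroup G), x * u = u * x) (c : A) (hc : c ≠ 1)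
    (hN : ∀ h : G, (∀ x ∈ (X : Subgroup G), h⁻¹ * x * h ∈ (X : Subgroup G)) →
      ∀ hm : h⁻¹ * u * h ∈ (X : Subgroup G), ϕ ⟨h⁻¹ * u * h, hm⟩ = c) : False := by
  have hcc : c * c = 1 := by
    have h1 : (1 : G)⁻¹ * u * 1 ∈ (X : Subgroup G) := by simpa using huX
    have h2 := hN 1 (fun x hx => by simpa using hx) h1
    rw [← h2, ← map_mul]
    have h3 : (⟨(1 : G)⁻¹ * u * 1, h1⟩ : ↥(X : Subgroup G)) * ⟨(1 : G)⁻¹ * u * 1, h1⟩ = 1 := by
      apply Subtype.ext
      simp [hu2]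
    rw [h3, map_one]
  have key : MonoidHom.transfer ϕ u = c := by
    rw [Cfsg.Agent.Helper20.S1906P.s1906_t1a (X : Subgroup G) ϕ u hu2]
    apply Cfsg.Agent.Helper78.S1906P.s1906_t1b X _ c hcc
    · intro x hx g
      rw [Cfsg.Agent.Helper11.S1906P.s1906_tw, Cfsg.Agent.Helper11.S1906P.s1906_tw]
      have h1 : (x * g)⁻¹ * u * (x * g) = g⁻¹ * u * g := by
        have h2 := huc x hx
        calc (x * g)⁻¹ * u * (x * g) = g⁻¹ * (x⁻¹ * (u * x)) * g := by group
          _ = g⁻¹ * (x⁻¹ * (x * u)) * g := by rw [h2]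
          _ = g⁻¹ * u * g := by group
      simp only [h1]
    · intro q
      by_cases h : q.out⁻¹ * u * q.out ∈ (X : Subgroup G)
      · rw [dif_pos h, ← map_mul]
        have h3 : (⟨q.out⁻¹ * u * q.out, h⟩ : ↥(X : Subgroup G)) * ⟨q.out⁻¹ * u * q.out, h⟩ = 1 := by
          apply Subtype.ext
          have : q.out⁻¹ * u * q.out * (q.out⁻¹ * u * q.out) = q.out⁻¹ * (u * u) * q.out := by
            group
          simp [this, hu2]
        rw [h3, map_one]
      · rw [dif_neg h, one_mul]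
    · intro h hh
      rw [Cfsg.Agent.Helper11.S1906P.s1906_tw]
      have hm : h⁻¹ * u * h ∈ (X : Subgroup G) := hh u huX
      rw [dif_pos hm]
      exact hN h hh hm
  obtain ⟨H, hH⟩ := Cfsg.Agent.Helper11.S1906P.s1906_t2 (MonoidHom.transfer ϕ) u hu2 (by rw [key]; exact hc)
  exact hG H hH

end transfer

end Cfsg.Agent.Helper14.S1906G
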